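import Mathlib
import Cfsg.Agent.Lib.helper15.RankTwo3
import Cfsg.Agent.Lib.helper14.S1456M1
import Cfsg.Agent.Lib.helper15.S1456M2
import Cfsg.Agent.Lib.lead.S1456M4
import Cfsg.Agent.Lib.helper21.S1456M3

set_option autoImplicit false

namespace Cfsg.Agent.Lib.helper8.S1456MC

open scoped commutatorElement

theorem narrow_der_centralizes {G : Type*} [Group G] [Finite G] [Group.IsSolvable G]
    (hodd : Odd (Nat.card G)) (p : ℕ) [Fact p.Prime] (P : Subgroup G) [P.Normal]
    (hP : IsPGroup p P) (E : Subgroup G) (hEP : E ≤ P)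
    (hEc : ∀ a ∈ E, ∀ b ∈ E, a * b = b * a) (hEp : ∀ a ∈ E, a ^ p = 1)
    (hr : ∀ B : Subgroup G, B ≤ P → B ≤ Subgroup.centralizer (E : Set G) →
      (∀ a ∈ B, ∀ b ∈ B, a * b = b * a) → (∀ b ∈ B, b ^ p = 1) → Nat.card B ≤ p ^ 2) :
    ∀ g ∈ commutator G, (orderOf g).Coprime p → g ∈ Subgroup.centralizer (P : Set G) := by
  have hpp : p.Prime := Fact.out
  have hPn : P.Normal := inferInstance
  intro g hg hcop
  by_cases hp2 : p = 2
  · have hPbot : P = ⊥ := by
      obtain ⟨n, hn⟩ := IsPGroup.iff_card.mp hP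
      have hdvd : Nat.card P ∣ Nat.card G := Subgroup.card_subgroup_dvd_card P
      rw [hn, hp2] at hdvd
      have hn0 : n = 0 := by
        by_contra hn0
        have h2 : 2 ∣ Nat.card G := dvd_trans (dvd_pow_self 2 hn0) hdvd
        exact (Nat.not_even_iff_odd.mpr hodd) (even_iff_two_dvd.mpr h2)
      rw [hn0, pow_zero] at hn
      exact Subgroup.card_eq_one.mp hn
    rw [Subgroup.mem_centralizer_iff]
    intro x hx
    rw [SetLike.mem_coe, hPbot] at hx
    rw [Subgroup.mem_bot.mp hx]; simp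
  obtain ⟨D, hDP, hDexp, hDcl, hDnorm, hDcrit⟩ :=
    Cfsg.Agent.Lib.helper15.GL2D.exists_critical p hp2 P hP
  have hPtop : Subgroup.normalizer (P : Set G) = ⊤ := Subgroup.normalizer_eq_top_iff.mpr hPn
  rw [hPtop] at hDnorm
  have hDn : D.Normal := Subgroup.normalizer_eq_top_iff.mp (top_le_iff.mp hDnorm)
  have hmemN : g ∈ Subgroup.normalizer (P : Set G) := by rw [hPtop]; exact Subgroup.mem_top g
  suffices hgD : g ∈ Subgroup.centralizer (D : Set G) from hDcrit g hmemN hcop hgD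
  obtain ⟨e, heP, hep, he⟩ :=
    Cfsg.Agent.Lib.helper14.S1456M1.exists_small_centralizer p P hP E hEP hEc hEp hr
  by_cases heD : e ∈ D
  · have hrk := Cfsg.Agent.Lib.helper15.S1456M2.rank_of_mem p D hDexp hDcl e heD
      (fun B hBD hBe hBc =>
        he B (hBD.trans hDP) hBe hBc (fun b hb => hDexp b (hBD hb)))
    have hsolv : Group.IsSolvable ↥(⊤ : Subgroup G) := inferInstance
    have hoddT : Odd (Nat.card ↥(⊤ : Subgroup G)) := by rw [Subgroup.card_top]; exact hodd
    have hact := Cfsg.Agent.Lib.helper15.GL2D.rank_two_action p hp2 D ⊤ hDexp hDcl hrk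
      hDnorm hsolv hoddT
    have h1 : g ^ (p ^ 2) ∈ Subgroup.centralizer (D : Set G) := hact.1 g hg
    obtain ⟨m, hm⟩ := exists_pow_eq_self_of_coprime (x := g) (n := p ^ 2)
      (Nat.Coprime.pow_left 2 hcop.symm)
    rw [← hm]; exact pow_mem h1 m
  · have hfix := Cfsg.Agent.Lib.lead.S1456M4.fix_card_le p P D hP hDP hDexp e heP hep heD he
    exact Cfsg.Agent.Lib.helper21.S1456M3.cent_of_small_fix p P D hP hDP e heP hfix g hg hcop

end Cfsg.Agent.Lib.helper8.S1456MC
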