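import Cfsg.Agent.Lib.helper8.AltPres

set_option autoImplicit false

namespace Cfsg.Agent.Lib.helper8

universe u v

structure h8s_Rel {G : Type u} [Group G] (m : ℕ) (t : ℕ → G) : Prop where
  R0 : t 0 * t 0 * t 0 = 1
  R1 : ∀ j, 1 ≤ j → j ≤ m → t j * t j = 1
  R2 : ∀ i j, 1 ≤ i → i + 1 < j → j ≤ m → t i * t j = t j * t i
  R2' : ∀ j, 2 ≤ j → j ≤ m → t j * t 0 * t j = (t 0)⁻¹
  R3 : ∀ i, 1 ≤ i → i + 1 ≤ m → t i * t (i + 1) * t i = t (i + 1) * t i * t (i + 1)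
  R3' : 1 ≤ m → t 1 * t 0 * t 1 = (t 0)⁻¹ * t 1 * (t 0)⁻¹

def h8s_Gen {G : Type u} [Group G] (m : ℕ) (t : ℕ → G) : Prop :=
  Subgroup.closure (Set.range (fun i : Fin (m + 1) => t i)) = ⊤

theorem h8s_card {G : Type u} [Group G] (m : ℕ) (t : ℕ → G) (hR : h8s_Rel m t)
    (hG : h8s_Gen m t) : Finite G ∧ 2 * Nat.card G ≤ (m + 3).factorial := by
  have h := h8a_card_le (m + 1) G (fun i : Fin (m + 1) => t i)
    (by intro i hi; show t i * t i * t i = 1; rw [hi]; exact hR.R0)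
    (by intro i hi; exact hR.R1 i hi (by have := i.2; omega))
    (by intro i j hi hij; exact hR.R2 i j hi hij (by have := j.2; omega))
    (by
      intro i j hi hj
      show t j * t i * t j = (t i)⁻¹
      rw [hi]
      exact hR.R2' j hj (by have := j.2; omega))
    (by
      intro i j hi hij
      show t i * t j * t i = t j * t i * t j
      rw [← hij]
      exact hR.R3 i hi (by have := j.2; omega))
    (by
      intro i j hi hj
      show t j * t i * t j = (t i)⁻¹ * t j * (t i)⁻¹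
      rw [hi, hj]
      exact hR.R3' (by have := j.2; omega))
    hG
  exact h

theorem h8s_rel_of_pow {G : Type u} [Group G] (m : ℕ) (t : ℕ → G)
    (P0 : t 0 * t 0 * t 0 = 1) (P1 : ∀ j, 1 ≤ j → j ≤ m → t j * t j = 1)
    (P3 : ∀ i, i + 1 ≤ m → (t i * t (i + 1)) ^ 3 = 1)
    (P2 : ∀ i j, i + 1 < j → j ≤ m → (t i * t j) ^ 2 = 1) : h8s_Rel m t := by
  have inv1 : ∀ j, 1 ≤ j → j ≤ m → (t j)⁻¹ = t j := fun j h1 h2 =>
    inv_eq_of_mul_eq_one_left (P1 j h1 h2)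
  refine ⟨P0, P1, ?_, ?_, ?_, ?_⟩
  · intro i j hi hij hj
    have h := P2 i j hij hj
    rw [pow_two] at h
    have h' : t i * t j = (t i * t j)⁻¹ := (inv_eq_of_mul_eq_one_left h).symm
    rw [h', mul_inv_rev, inv1 i hi (by omega), inv1 j (by omega) hj]
  · intro j hj hjm
    have h := P2 0 j (by omega) hjm
    rw [pow_two] at h
    apply eq_inv_of_mul_eq_one_right
    rw [← h]
    simp only [mul_assoc]
  · intro i hi him
    have h := P3 i him
    have h2 : t i * t (i + 1) * t i * (t (i + 1) * t i * t (i + 1))⁻¹ = 1 := by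
      rw [mul_inv_rev, mul_inv_rev, inv1 i hi (by omega), inv1 (i + 1) (by omega) him]
      rw [← h, pow_succ, pow_two]
      simp only [mul_assoc]
    exact mul_inv_eq_one.mp h2
  · intro hm
    have h : (t 0 * t 1) ^ 3 = 1 := P3 0 (by omega)
    have hj1 := inv1 1 (by omega) hm
    have h2 : t 1 * t 0 * t 1 = (t 0 * t 1 * t 0)⁻¹ := by
      apply eq_inv_of_mul_eq_one_right
      rw [← h, pow_succ, pow_two]
      simp only [mul_assoc]
    rw [h2, mul_inv_rev, mul_inv_rev, hj1, mul_assoc]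

theorem h8s_inv {G : Type u} [Group G] {m : ℕ} {t : ℕ → G} (hR : h8s_Rel m t) (j : ℕ)
    (h1 : 1 ≤ j) (h2 : j ≤ m) : (t j)⁻¹ = t j :=
  inv_eq_of_mul_eq_one_left (hR.R1 j h1 h2)

theorem h8s_P3 {G : Type u} [Group G] {m : ℕ} {t : ℕ → G} (hR : h8s_Rel m t) (i : ℕ)
    (hi : i + 1 ≤ m) : (t i * t (i + 1)) ^ 3 = 1 := by
  rcases Nat.eq_zero_or_pos i with h0 | h0
  · subst h0
    have h1 : t 1 * t 0 * t 1 = (t 0)⁻¹ * t 1 * (t 0)⁻¹ := hR.R3' (by omega)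
    have h2 : t 1 * t 1 = 1 := hR.R1 1 (by omega) (by omega)
    show (t 0 * t 1) ^ 3 = 1
    calc (t 0 * t 1) ^ 3 = t 0 * (t 1 * t 0 * t 1) * t 0 * t 1 := by
          rw [pow_succ, pow_two]; simp only [mul_assoc]
      _ = t 0 * ((t 0)⁻¹ * t 1 * (t 0)⁻¹) * t 0 * t 1 := by rw [h1]
      _ = t 1 * t 1 := by group
      _ = 1 := h2
  · have h1 := hR.R3 i h0 hi
    have h2 := hR.R1 i h0 (by omega)
    have h3 := hR.R1 (i + 1) (by omega) hi
    calc (t i * t (i + 1)) ^ 3 = (t i * t (i + 1) * t i) * (t (i + 1) * t i * t (i + 1)) := by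
          rw [pow_succ, pow_two]; simp only [mul_assoc]
      _ = (t (i + 1) * t i * t (i + 1)) * (t (i + 1) * t i * t (i + 1)) := by rw [h1]
      _ = t (i + 1) * t i * (t (i + 1) * t (i + 1)) * t i * t (i + 1) := by
          simp only [mul_assoc]
      _ = t (i + 1) * (t i * t i) * t (i + 1) := by rw [h3, mul_one]; simp only [mul_assoc]
      _ = 1 := by rw [h2, mul_one, h3]

theorem h8s_A2 {G : Type u} [Group G] {m : ℕ} {t : ℕ → G} (hR : h8s_Rel m t) (hm : 1 ≤ m) :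
    t 1 * (t 0 * t 1 * (t 0)⁻¹) = (t 0 * t 1 * (t 0)⁻¹) * t 1 := by
  have h1 : t 1 * t 0 * t 1 = (t 0)⁻¹ * t 1 * (t 0)⁻¹ := hR.R3' hm
  have h0 := hR.R0
  have hb := hR.R1 1 (by omega) hm
  have aa : t 0 * t 0 = (t 0)⁻¹ := eq_inv_of_mul_eq_one_left h0
  have ai : (t 0)⁻¹ * (t 0)⁻¹ = t 0 := by
    calc (t 0)⁻¹ * (t 0)⁻¹ = (t 0)⁻¹ * (t 0)⁻¹ * (t 0 * t 0 * t 0) := by rw [h0, mul_one]
      _ = t 0 := by group
  have bi : (t 1)⁻¹ = t 1 := inv_eq_of_mul_eq_one_left hb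
  have h1' : t 1 * (t 0)⁻¹ * t 1 = t 0 * t 1 * t 0 := by
    calc t 1 * (t 0)⁻¹ * t 1 = (t 1)⁻¹ * (t 0)⁻¹ * (t 1)⁻¹ := by rw [bi]
      _ = (t 1 * t 0 * t 1)⁻¹ := by group
      _ = ((t 0)⁻¹ * t 1 * (t 0)⁻¹)⁻¹ := by rw [h1]
      _ = t 0 * (t 1)⁻¹ * t 0 := by group
      _ = t 0 * t 1 * t 0 := by rw [bi]
  calc t 1 * (t 0 * t 1 * (t 0)⁻¹) = (t 1 * t 0 * t 1) * (t 0)⁻¹ := by group
    _ = (t 0)⁻¹ * t 1 * ((t 0)⁻¹ * (t 0)⁻¹) := by rw [h1]; group
    _ = (t 0)⁻¹ * t 1 * t 0 := by rw [ai]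
    _ = (t 0 * t 0) * t 1 * t 0 := by rw [aa]
    _ = t 0 * (t 0 * t 1 * t 0) := by group
    _ = t 0 * (t 1 * (t 0)⁻¹ * t 1) := by rw [h1']
    _ = (t 0 * t 1 * (t 0)⁻¹) * t 1 := by group

theorem h8s_braid_conj {G : Type u} [Group G] {x y : G} (xx : x * x = 1) (yy : y * y = 1)
    (br : x * y * x = y * x * y) : (x * y) * x * (x * y)⁻¹ = y := by
  have xi : x⁻¹ = x := inv_eq_of_mul_eq_one_left xx
  have yi : y⁻¹ = y := inv_eq_of_mul_eq_one_left yy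
  calc (x * y) * x * (x * y)⁻¹ = (x * y * x) * y⁻¹ * x⁻¹ := by group
    _ = (y * x * y) * y * x := by rw [br, xi, yi]
    _ = y * x * (y * y) * x := by simp only [mul_assoc]
    _ = y * (x * x) := by rw [yy, mul_one]; simp only [mul_assoc]
    _ = y := by rw [xx, mul_one]

theorem h8s_comm_conj {G : Type u} [Group G] {x y w : G} (h1 : x * w = w * x)
    (h2 : y * w = w * y) : (x * y) * w * (x * y)⁻¹ = w := by
  calc (x * y) * w * (x * y)⁻¹ = x * (y * w) * y⁻¹ * x⁻¹ := by group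
    _ = x * (w * y) * y⁻¹ * x⁻¹ := by rw [h2]
    _ = (x * w) * x⁻¹ := by group
    _ = w * x * x⁻¹ := by rw [h1]
    _ = w := by group

theorem h8s_A4 {G : Type u} [Group G] {m : ℕ} {t : ℕ → G} (hR : h8s_Rel m t) (j : ℕ)
    (h2 : 2 ≤ j) (hj : j ≤ m) : t j * t 0 * (t j)⁻¹ = (t 0)⁻¹ := by
  rw [h8s_inv hR j (by omega) hj]
  exact hR.R2' j h2 hj

structure h8s_Stem {Γ : Type u} {A : Type v} [Group Γ] [Group A] (π : Γ →* A) : Prop where
  surj : Function.Surjective π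
  cen : ∀ z, π z = 1 → ∀ g, g * z = z * g
  der : ∀ z, π z = 1 → z ∈ commutator Γ

theorem h8s_dec {Γ : Type u} {A : Type v} [Group Γ] [Group A] (π : Γ →* A) {x w : Γ}
    (h : π x = π w) : ∃ c, π c = 1 ∧ x = w * c :=
  ⟨w⁻¹ * x, by rw [map_mul, map_inv, h, inv_mul_cancel], by group⟩

theorem h8s_cen' {Γ : Type u} {A : Type v} [Group Γ] [Group A] {π : Γ →* A}
    (hS : h8s_Stem π) {c : Γ} (hc : π c = 1) (g : Γ) : g * c * g⁻¹ = c := by
  rw [hS.cen c hc g, mul_inv_cancel_right]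

theorem h8s_cm {Γ : Type u} {A : Type v} [Group Γ] [Group A] {π : Γ →* A}
    (hS : h8s_Stem π) {x x' w w' : Γ} (h1 : π x = π x') (h2 : π w = π w') :
    x * w * x⁻¹ * w⁻¹ = x' * w' * x'⁻¹ * w'⁻¹ := by
  obtain ⟨c, hc, rfl⟩ := h8s_dec π h1
  obtain ⟨d, hd, rfl⟩ := h8s_dec π h2
  have e1 := hS.cen c hc
  have e2 := hS.cen d hd
  calc x' * c * (w' * d) * (x' * c)⁻¹ * (w' * d)⁻¹
      = x' * (c * (w' * d)) * c⁻¹ * x'⁻¹ * (w' * d)⁻¹ := by group
    _ = x' * ((w' * d) * c) * c⁻¹ * x'⁻¹ * (w' * d)⁻¹ := by rw [← e1 (w' * d)]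
    _ = x' * w' * (d * x'⁻¹) * d⁻¹ * w'⁻¹ := by group
    _ = x' * w' * (x'⁻¹ * d) * d⁻¹ * w'⁻¹ := by rw [← e2 x'⁻¹]
    _ = x' * w' * x'⁻¹ * w'⁻¹ := by group

theorem h8s_gen_lifts {Γ : Type u} {A : Type v} [Group Γ] [Group A] {π : Γ →* A}
    (hS : h8s_Stem π) (m : ℕ) (t : ℕ → A) (hG : h8s_Gen m t) (y : ℕ → Γ)
    (hy : ∀ j, j ≤ m → π (y j) = t j) : h8s_Gen m y := by
  obtain ⟨K, hK⟩ : ∃ K : Subgroup Γ,
      K = Subgroup.closure (Set.range (fun i : Fin (m + 1) => y i)) := ⟨_, rfl⟩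
  have hmap : K.map π = ⊤ := by
    rw [hK, MonoidHom.map_closure, ← Set.range_comp]
    have e : (π ∘ fun i : Fin (m + 1) => y i) = fun i : Fin (m + 1) => t i := by
      funext i
      exact hy i (by have := i.2; omega)
    rw [e]
    exact hG
  have hdecomp : ∀ g : Γ, ∃ k ∈ K, ∃ z, π z = 1 ∧ g = k * z := by
    intro g
    have h1 : π g ∈ K.map π := by rw [hmap]; exact Subgroup.mem_top _
    obtain ⟨k, hk, hkg⟩ := h1
    refine ⟨k, hk, k⁻¹ * g, ?_, by group⟩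
    rw [map_mul, map_inv, hkg, inv_mul_cancel]
  have hcomm : commutator Γ ≤ K := by
    rw [commutator_eq_closure, Subgroup.closure_le]
    rintro _ ⟨g, h, rfl⟩
    have h1 : π g ∈ K.map π := by rw [hmap]; exact Subgroup.mem_top _
    obtain ⟨k, hk, hkg⟩ := h1
    have h2 : π h ∈ K.map π := by rw [hmap]; exact Subgroup.mem_top _
    obtain ⟨k', hk', hkh⟩ := h2
    rw [commutatorElement_def, h8s_cm hS hkg.symm hkh.symm]
    exact K.mul_mem (K.mul_mem (K.mul_mem hk hk') (K.inv_mem hk)) (K.inv_mem hk')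
  have htop : K = ⊤ := by
    rw [eq_top_iff]
    intro g _
    obtain ⟨k, hk, z, hz, rfl⟩ := hdecomp g
    exact K.mul_mem hk (hcomm (hS.der z hz))
  show Subgroup.closure (Set.range (fun i : Fin (m + 1) => y i)) = ⊤
  rw [← hK]
  exact htop

theorem h8s_core {Γ : Type u} {A : Type v} [Group Γ] [Group A] [Finite Γ] (π : Γ →* A)
    (hS : h8s_Stem π) (m : ℕ) (t : ℕ → A) (hG : h8s_Gen m t)
    (hcard : 2 * Nat.card A = (m + 3).factorial)
    (y : ℕ → Γ) (hy : ∀ j, j ≤ m → π (y j) = t j) (hRy : h8s_Rel m y) :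
    ∀ z, π z = 1 → z = 1 := by
  have hGy := h8s_gen_lifts hS m t hG y hy
  obtain ⟨-, hle⟩ := h8s_card m y hRy hGy
  have hc1 : Nat.card Γ = Nat.card (Γ ⧸ π.ker) * Nat.card π.ker :=
    Subgroup.card_eq_card_quotient_mul_card_subgroup π.ker
  have hc2 : Nat.card (Γ ⧸ π.ker) = Nat.card A :=
    Nat.card_congr (QuotientGroup.quotientKerEquivOfSurjective π hS.surj).toEquiv
  have hpos : 0 < Nat.card A := by
    have := Nat.factorial_pos (m + 3)
    omega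
  have hk : Nat.card π.ker ≤ 1 := by
    rw [hc1, hc2] at hle
    by_contra hcon
    have h2 : 2 ≤ Nat.card π.ker := by omega
    have h3 := Nat.mul_le_mul_left (Nat.card A) h2
    linarith
  have hbot : π.ker = ⊥ := Subgroup.eq_bot_of_card_le π.ker hk
  intro z hz
  have h1 : z ∈ π.ker := MonoidHom.mem_ker.mpr hz
  rw [hbot] at h1
  exact Subgroup.mem_bot.mp h1

theorem h8s_normal_of_central {Γ : Type u} [Group Γ] (W : Subgroup Γ)
    (h : ∀ w ∈ W, ∀ g : Γ, g * w = w * g) : W.Normal :=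
  ⟨fun w hw g => by rw [h w hw g, mul_inv_cancel_right]; exact hw⟩

theorem h8s_quot {Γ : Type u} {A : Type v} [Group Γ] [Group A] (π : Γ →* A)
    (hS : h8s_Stem π) (W : Subgroup Γ) [W.Normal] (hW : ∀ w ∈ W, π w = 1) :
    ∃ π' : Γ ⧸ W →* A, (∀ g : Γ, π' (QuotientGroup.mk g) = π g) ∧ h8s_Stem π' := by
  have hWk : W ≤ π.ker := fun w hw => MonoidHom.mem_ker.mpr (hW w hw)
  refine ⟨QuotientGroup.lift W π hWk, fun g => QuotientGroup.lift_mk W hWk g, ?_⟩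
  constructor
  · intro a
    obtain ⟨g, rfl⟩ := hS.surj a
    exact ⟨QuotientGroup.mk g, QuotientGroup.lift_mk W hWk g⟩
  · intro x hx y
    obtain ⟨g, rfl⟩ := QuotientGroup.mk_surjective x
    obtain ⟨h, rfl⟩ := QuotientGroup.mk_surjective y
    have hg : π g = 1 := by rw [← hx]; exact (QuotientGroup.lift_mk W hWk g).symm
    rw [← QuotientGroup.mk_mul, ← QuotientGroup.mk_mul, hS.cen g hg h]
  · intro x hx
    obtain ⟨g, rfl⟩ := QuotientGroup.mk_surjective x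
    have hg : π g = 1 := by rw [← hx]; exact (QuotientGroup.lift_mk W hWk g).symm
    have h1 := hS.der g hg
    have h2 : (QuotientGroup.mk' W) g ∈ (commutator Γ).map (QuotientGroup.mk' W) :=
      Subgroup.mem_map_of_mem _ h1
    rw [commutator_def, Subgroup.map_commutator] at h2
    exact Subgroup.commutator_mono le_top le_top h2

end Cfsg.Agent.Lib.helper8
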