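import Cfsg.Agent.Lib.helper8.AltStem1

set_option autoImplicit false

namespace Cfsg.Agent.Lib.helper8

universe u v

theorem h8s_V {G : Type u} [Group G] (a b z : G) (hz : ∀ g, z * g = g * z) (hzz : z * z = 1)
    (a3 : a * a * a = 1) (bb : b * b = z) (ab3 : (a * b) ^ 3 = 1) :
    (a * b * a⁻¹) * (a⁻¹ * b * a) = b * z ∧ (a⁻¹ * b * a) * (a * b * a⁻¹) = b ∧
    b * (a * b * a⁻¹) = (a * b * a⁻¹) * b * z := by
  have aa : a * a = a⁻¹ := eq_inv_of_mul_eq_one_left a3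
  have aia : a⁻¹ * a⁻¹ = a := by
    calc a⁻¹ * a⁻¹ = a⁻¹ * a⁻¹ * (a * a * a) := by rw [a3, mul_one]
      _ = a := by group
  have bi : b⁻¹ = b * z := by
    apply inv_eq_of_mul_eq_one_right
    rw [← mul_assoc, bb, hzz]
  have E1 : (a * b * a⁻¹) * (a⁻¹ * b * a) * b = 1 := by
    calc (a * b * a⁻¹) * (a⁻¹ * b * a) * b = a * b * (a⁻¹ * a⁻¹) * b * a * b := by group
      _ = (a * b) ^ 3 := by rw [aia, pow_succ, pow_two]; simp only [mul_assoc]
      _ = 1 := ab3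
  have V1 : (a * b * a⁻¹) * (a⁻¹ * b * a) = b * z := by
    rw [← bi]
    exact eq_inv_of_mul_eq_one_left E1
  have V1' : (a⁻¹ * b * a) * b = (a * b * a⁻¹) * z := by
    have h : a * ((a * b * a⁻¹) * (a⁻¹ * b * a)) * a⁻¹ = a * (b * z) * a⁻¹ := by rw [V1]
    have l : a * ((a * b * a⁻¹) * (a⁻¹ * b * a)) * a⁻¹ = (a⁻¹ * b * a) * b := by
      calc a * ((a * b * a⁻¹) * (a⁻¹ * b * a)) * a⁻¹ = (a * a) * b * (a⁻¹ * a⁻¹) * b := by
            group
        _ = (a⁻¹ * b * a) * b := by rw [aa, aia]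
    have r : a * (b * z) * a⁻¹ = (a * b * a⁻¹) * z := by simp only [mul_assoc, hz]
    rw [← l, ← r]
    exact h
  have V1'' : b * (a * b * a⁻¹) = (a⁻¹ * b * a) * z := by
    have h : a * ((a⁻¹ * b * a) * b) * a⁻¹ = a * ((a * b * a⁻¹) * z) * a⁻¹ := by rw [V1']
    have l : a * ((a⁻¹ * b * a) * b) * a⁻¹ = b * (a * b * a⁻¹) := by group
    have r : a * ((a * b * a⁻¹) * z) * a⁻¹ = (a⁻¹ * b * a) * z := by
      calc a * ((a * b * a⁻¹) * z) * a⁻¹ = (a * a) * b * (a⁻¹ * a⁻¹) * z := by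
            simp only [mul_assoc, hz]
        _ = (a⁻¹ * b * a) * z := by rw [aa, aia]
    rw [← l, ← r]
    exact h
  have v2sq : (a * b * a⁻¹) * (a * b * a⁻¹) = z := by
    calc (a * b * a⁻¹) * (a * b * a⁻¹) = a * (b * b) * a⁻¹ := by group
      _ = z := by rw [bb, ← hz a, mul_inv_cancel_right]
  have v3eq : a⁻¹ * b * a = b * (a * b * a⁻¹) * z := by
    calc a⁻¹ * b * a = (a⁻¹ * b * a) * z * z := by
          rw [mul_assoc (a⁻¹ * b * a) z z, hzz, mul_one]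
      _ = b * (a * b * a⁻¹) * z := by rw [← V1'']
  have v3eq' : a⁻¹ * b * a = (a * b * a⁻¹) * b := by
    calc a⁻¹ * b * a = ((a⁻¹ * b * a) * b) * b⁻¹ := by group
      _ = ((a * b * a⁻¹) * z) * (b * z) := by rw [V1', bi]
      _ = (a * b * a⁻¹) * b * (z * z) := by simp only [mul_assoc, hz]
      _ = (a * b * a⁻¹) * b := by rw [hzz, mul_one]
  refine ⟨V1, ?_, ?_⟩
  · calc (a⁻¹ * b * a) * (a * b * a⁻¹) = b * (a * b * a⁻¹) * z * (a * b * a⁻¹) := by
          rw [← v3eq]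
      _ = b * ((a * b * a⁻¹) * (a * b * a⁻¹)) * z := by simp only [mul_assoc, hz]
      _ = b := by rw [v2sq, mul_assoc, hzz, mul_one]
  · calc b * (a * b * a⁻¹) = (a⁻¹ * b * a) * z := V1''
      _ = (a * b * a⁻¹) * b * z := by rw [v3eq']

theorem h8s_C {G : Type u} [Group G] (a b z B c : G) (hz : ∀ g, z * g = g * z)
    (hzz : z * z = 1) (a3 : a * a * a = 1) (bb : b * b = z) (ab3 : (a * b) ^ 3 = 1)
    (hc : ∀ g, g * c = c * g) (hcc : c * c = 1)
    (Ba : B * a * B⁻¹ = a⁻¹) (Bb : B * b * B⁻¹ = b * c) : c = z := by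
  obtain ⟨V1, V2, -⟩ := h8s_V a b z hz hzz a3 bb ab3
  have hc' : ∀ g h, g * (c * h) = c * (g * h) := by
    intro g h
    rw [← mul_assoc, hc g, mul_assoc]
  have k2 : B * (a * b * a⁻¹) * B⁻¹ = c * (a⁻¹ * b * a) := by
    calc B * (a * b * a⁻¹) * B⁻¹ = (B * a * B⁻¹) * (B * b * B⁻¹) * (B * a * B⁻¹)⁻¹ := by group
      _ = a⁻¹ * (b * c) * a⁻¹⁻¹ := by rw [Ba, Bb]
      _ = c * (a⁻¹ * b * a) := by rw [inv_inv]; simp only [mul_assoc, hc, hc']
  have k3 : B * (a⁻¹ * b * a) * B⁻¹ = c * (a * b * a⁻¹) := by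
    calc B * (a⁻¹ * b * a) * B⁻¹ = (B * a * B⁻¹)⁻¹ * (B * b * B⁻¹) * (B * a * B⁻¹) := by group
      _ = a⁻¹⁻¹ * (b * c) * a⁻¹ := by rw [Ba, Bb]
      _ = c * (a * b * a⁻¹) := by rw [inv_inv]; simp only [mul_assoc, hc, hc']
  have h : B * ((a * b * a⁻¹) * (a⁻¹ * b * a)) * B⁻¹ = B * (b * z) * B⁻¹ := by rw [V1]
  have l : B * ((a * b * a⁻¹) * (a⁻¹ * b * a)) * B⁻¹ = b := by
    calc B * ((a * b * a⁻¹) * (a⁻¹ * b * a)) * B⁻¹
        = (B * (a * b * a⁻¹) * B⁻¹) * (B * (a⁻¹ * b * a) * B⁻¹) := by group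
      _ = (c * (a⁻¹ * b * a)) * (c * (a * b * a⁻¹)) := by rw [k2, k3]
      _ = (c * c) * ((a⁻¹ * b * a) * (a * b * a⁻¹)) := by simp only [mul_assoc, hc, hc']
      _ = b := by rw [hcc, one_mul, V2]
  have r : B * (b * z) * B⁻¹ = b * (c * z) := by
    calc B * (b * z) * B⁻¹ = (B * b * B⁻¹) * z := by simp only [mul_assoc, hz]
      _ = b * (c * z) := by rw [Bb, mul_assoc]
  have e : b * 1 = b * (c * z) := by rw [mul_one]; exact l.symm.trans (h.trans r)
  have cz : c * z = 1 := (mul_left_cancel e).symm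
  calc c = c * (z * z) := by rw [hzz, mul_one]
    _ = (c * z) * z := by rw [mul_assoc]
    _ = z := by rw [cz, one_mul]

theorem h8s_two {Γ : Type u} {A : Type v} [Group Γ] [Group A] [Finite Γ] (π : Γ →* A)
    (hS : h8s_Stem π) (m : ℕ) (hm : 1 ≤ m) (t : ℕ → A) (hR : h8s_Rel m t) (hG : h8s_Gen m t)
    (hcard : 2 * Nat.card A = (m + 3).factorial)
    (hexp : ∀ z, π z = 1 → z * z = 1)
    (α β : Γ) (hα : π α = t 0) (hβ : π β = t 1) :
    ∀ ζ, π ζ = 1 → ζ = 1 ∨ ζ = β * (α * β * α⁻¹) * β⁻¹ * (α * β * α⁻¹)⁻¹ := by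
  classical
  choose x hx using fun j => hS.surj (t j)
  have SQ : ∀ p w : Γ, π p = π w → p * p = w * w := by
    intro p w h
    obtain ⟨c, hc, rfl⟩ := h8s_dec π h
    have e := hS.cen c hc
    calc w * c * (w * c) = w * (c * w) * c := by group
      _ = w * (w * c) * c := by rw [← e w]
      _ = w * w * (c * c) := by group
      _ = w * w := by rw [hexp c hc, mul_one]
  have cube4 : ∀ w : Γ, π w = 1 → w * w ^ 3 = 1 := by
    intro w hw
    have h2 := hexp w hw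
    calc w * w ^ 3 = (w * w) * (w * w) := by rw [pow_succ, pow_two]; simp only [mul_assoc]
      _ = 1 := by rw [h2, one_mul]
  have CU : ∀ p w : Γ, π p = π w → p ^ 3 = 1 → w ^ 3 = 1 → p = w := by
    intro p w h hp hw
    obtain ⟨c, hc, rfl⟩ := h8s_dec π h
    have e : Commute w c := hS.cen c hc w
    rw [e.mul_pow, hw, one_mul] at hp
    have hc1 : c = 1 := by
      have h2 := hexp c hc
      calc c = c * (c * c) := by rw [h2, mul_one]
        _ = c ^ 3 := by rw [pow_succ, pow_two, mul_assoc]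
        _ = 1 := hp
    rw [hc1, mul_one]
  obtain ⟨ζ₀, hζ₀⟩ : ∃ ζ₀, ζ₀ = (x 0) ^ 3 := ⟨_, rfl⟩
  have hζ₀π : π ζ₀ = 1 := by
    rw [hζ₀, map_pow, hx, pow_succ, pow_two]
    exact hR.R0
  obtain ⟨α₁, hα₁⟩ : ∃ α₁, α₁ = x 0 * ζ₀ := ⟨_, rfl⟩
  have hα₁π : π α₁ = t 0 := by rw [hα₁, map_mul, hx, hζ₀π, mul_one]
  have hα₁3 : α₁ ^ 3 = 1 := by
    have e : Commute (x 0) ζ₀ := hS.cen ζ₀ hζ₀π (x 0)
    rw [hα₁, e.mul_pow, ← hζ₀]
    exact cube4 ζ₀ hζ₀π
  obtain ⟨B, hB0, hBs⟩ : ∃ B : ℕ → Γ, B 0 = α₁ ∧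
      ∀ i, B (i + 1) = x (i + 1) * (B i * x (i + 1)) ^ 3 :=
    ⟨fun i => Nat.rec (motive := fun _ => Γ) α₁
      (fun i acc => x (i + 1) * (acc * x (i + 1)) ^ 3) i, rfl, fun i => rfl⟩
  have hBπ : ∀ i, i ≤ m → π (B i) = t i := by
    intro i
    induction i with
    | zero => intro _; rw [hB0]; exact hα₁π
    | succ i ih =>
      intro hi
      rw [hBs, map_mul, map_pow, map_mul, ih (by omega), hx, h8s_P3 hR i hi, mul_one]
  have hB3 : ∀ i, i + 1 ≤ m → (B i * B (i + 1)) ^ 3 = 1 := by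
    intro i hi
    obtain ⟨w, hw⟩ : ∃ w, w = (B i * x (i + 1)) ^ 3 := ⟨_, rfl⟩
    have hwπ : π w = 1 := by
      rw [hw, map_pow, map_mul, hBπ i (by omega), hx]
      exact h8s_P3 hR i hi
    have e : Commute (B i * x (i + 1)) w := hS.cen w hwπ _
    rw [hBs, ← hw, ← mul_assoc, e.mul_pow, ← hw]
    exact cube4 w hwπ
  obtain ⟨z, hz⟩ : ∃ z, z = B 1 * B 1 := ⟨_, rfl⟩
  have hzπ : π z = 1 := by
    rw [hz, map_mul, hBπ 1 hm]
    exact hR.R1 1 (by omega) hm
  have hzz : z * z = 1 := hexp z hzπ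
  have hzc : ∀ g, z * g = g * z := fun g => (hS.cen z hzπ g).symm
  have hBsq : ∀ j, 1 ≤ j → j ≤ m → B j * B j = z := by
    intro j hj
    induction j, hj using Nat.le_induction with
    | base => intro _; exact hz.symm
    | succ j hj ih =>
      intro hjm
      have ihj := ih (by omega)
      have hπ : π ((B j * B (j + 1)) * B j * (B j * B (j + 1))⁻¹) = π (B (j + 1)) := by
        rw [map_mul, map_mul, map_inv, map_mul, hBπ j (by omega), hBπ (j + 1) hjm]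
        exact h8s_braid_conj (hR.R1 j hj (by omega)) (hR.R1 (j + 1) (by omega) hjm)
          (hR.R3 j hj hjm)
      have h1 := SQ _ _ hπ
      rw [← h1]
      have hc : π (B j * B j) = 1 := by rw [ihj]; exact hzπ
      calc (B j * B (j + 1)) * B j * (B j * B (j + 1))⁻¹
            * ((B j * B (j + 1)) * B j * (B j * B (j + 1))⁻¹)
          = (B j * B (j + 1)) * (B j * B j) * (B j * B (j + 1))⁻¹ := by group
        _ = B j * B j := h8s_cen' hS hc _
        _ = z := ihj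
  have hBα : ∀ j, 2 ≤ j → j ≤ m → B j * α₁ * (B j)⁻¹ = α₁⁻¹ := by
    intro j hj hjm
    apply CU
    · rw [map_mul, map_mul, map_inv, map_inv, hBπ j hjm, hα₁π]
      exact h8s_A4 hR j hj hjm
    · rw [conj_pow, hα₁3, mul_one, mul_inv_cancel]
    · rw [inv_pow, hα₁3, inv_one]
  have a3 : α₁ * α₁ * α₁ = 1 := by rw [← hα₁3, pow_succ, pow_two]
  have hB1sq : B 1 * B 1 = z := hz.symm
  have hab3 : (α₁ * B 1) ^ 3 = 1 := by
    have h := hB3 0 (by omega)
    rw [hB0] at h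
    exact h
  obtain ⟨V1, V2, V3⟩ := h8s_V α₁ (B 1) z hzc hzz a3 hB1sq hab3
  have hcomm : ∀ j, j ≤ m → ∀ i, 1 ≤ i → i + 1 < j → (B i * B j) * (B i * B j) = z := by
    intro j hjm i hi
    induction i, hi using Nat.le_induction with
    | base =>
      intro hij
      obtain ⟨c, hc⟩ : ∃ c, c = (B 1)⁻¹ * (B j * B 1 * (B j)⁻¹) := ⟨_, rfl⟩
      have hcπ : π c = 1 := by
        rw [hc, map_mul, map_mul, map_mul, map_inv, map_inv, hBπ j hjm, hBπ 1 hm]
        have h := hR.R2 1 j (by omega) hij hjm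
        rw [← h]
        group
      have hcc := hexp c hcπ
      have hcen := hS.cen c hcπ
      have Bb : B j * B 1 * (B j)⁻¹ = B 1 * c := by rw [hc]; group
      have hcz := h8s_C α₁ (B 1) z (B j) c hzc hzz a3 hB1sq hab3 hcen hcc
        (hBα j (by omega) hjm) Bb
      calc (B 1 * B j) * (B 1 * B j) = B 1 * (B j * B 1 * (B j)⁻¹) * (B j * B j) := by group
        _ = B 1 * (B 1 * c) * z := by rw [Bb, hBsq j (by omega) hjm]
        _ = (B 1 * B 1) * (c * z) := by group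
        _ = z := by rw [hB1sq, hcz, hzz, mul_one]
    | succ i hi ih =>
      intro hij
      have ihi := ih (by omega)
      have hπ : π ((B i * B (i + 1)) * (B i * B j) * (B i * B (i + 1))⁻¹)
          = π (B (i + 1) * B j) := by
        rw [map_mul, map_mul, map_inv, map_mul, map_mul, map_mul, hBπ i (by omega),
          hBπ (i + 1) (by omega), hBπ j hjm]
        have e1 := h8s_braid_conj (hR.R1 i hi (by omega)) (hR.R1 (i + 1) (by omega) (by omega))
          (hR.R3 i hi (by omega))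
        have e2 := h8s_comm_conj (hR.R2 i j hi (by omega) hjm)
          (hR.R2 (i + 1) j (by omega) hij hjm)
        calc t i * t (i + 1) * (t i * t j) * (t i * t (i + 1))⁻¹
            = ((t i * t (i + 1)) * t i * (t i * t (i + 1))⁻¹)
              * ((t i * t (i + 1)) * t j * (t i * t (i + 1))⁻¹) := by group
          _ = t (i + 1) * t j := by rw [e1, e2]
      have h1 := SQ _ _ hπ
      rw [← h1]
      have hc : π ((B i * B j) * (B i * B j)) = 1 := by rw [ihi]; exact hzπ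
      calc (B i * B (i + 1)) * (B i * B j) * (B i * B (i + 1))⁻¹
            * ((B i * B (i + 1)) * (B i * B j) * (B i * B (i + 1))⁻¹)
          = (B i * B (i + 1)) * ((B i * B j) * (B i * B j)) * (B i * B (i + 1))⁻¹ := by group
        _ = (B i * B j) * (B i * B j) := h8s_cen' hS hc _
        _ = z := ihi
  have hWk : ∀ w ∈ Subgroup.zpowers z, π w = 1 := by
    intro w hw
    obtain ⟨k, rfl⟩ := Subgroup.mem_zpowers_iff.mp hw
    rw [map_zpow, hzπ, one_zpow]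
  haveI : (Subgroup.zpowers z).Normal :=
    h8s_normal_of_central _ (fun w hw g => hS.cen w (hWk w hw) g)
  obtain ⟨π', hπ', hS'⟩ := h8s_quot π hS (Subgroup.zpowers z) hWk
  have hzmk : (QuotientGroup.mk z : Γ ⧸ Subgroup.zpowers z) = 1 :=
    (QuotientGroup.eq_one_iff z).mpr (Subgroup.mem_zpowers z)
  have hRy : h8s_Rel m (fun j => (QuotientGroup.mk (B j) : Γ ⧸ Subgroup.zpowers z)) := by
    apply h8s_rel_of_pow
    · show (QuotientGroup.mk (B 0) : Γ ⧸ Subgroup.zpowers z) * QuotientGroup.mk (B 0)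
        * QuotientGroup.mk (B 0) = 1
      rw [← QuotientGroup.mk_mul, ← QuotientGroup.mk_mul, hB0, a3]
      rfl
    · intro j h1 h2
      show (QuotientGroup.mk (B j) : Γ ⧸ Subgroup.zpowers z) * QuotientGroup.mk (B j) = 1
      rw [← QuotientGroup.mk_mul, hBsq j h1 h2]
      exact hzmk
    · intro i hi
      show ((QuotientGroup.mk (B i) : Γ ⧸ Subgroup.zpowers z)
        * QuotientGroup.mk (B (i + 1))) ^ 3 = 1
      rw [← QuotientGroup.mk_mul, ← QuotientGroup.mk_pow, hB3 i hi]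
      rfl
    · intro i j hij hj
      show ((QuotientGroup.mk (B i) : Γ ⧸ Subgroup.zpowers z) * QuotientGroup.mk (B j)) ^ 2 = 1
      rw [← QuotientGroup.mk_mul, ← QuotientGroup.mk_pow, pow_two]
      rcases Nat.eq_zero_or_pos i with h0 | h0
      · subst h0
        rw [hB0]
        have e : (α₁ * B j) * (α₁ * B j) = z := by
          calc (α₁ * B j) * (α₁ * B j) = α₁ * (B j * α₁ * (B j)⁻¹) * (B j * B j) := by group
            _ = z := by rw [hBα j (by omega) hj, hBsq j (by omega) hj]; group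
        rw [e]
        exact hzmk
      · rw [hcomm j hj i h0 hij]
        exact hzmk
  have hker := h8s_core π' hS' m t hG hcard (fun j => QuotientGroup.mk (B j))
    (fun j hj => by rw [hπ']; exact hBπ j hj) hRy
  have hzeq : z = β * (α * β * α⁻¹) * β⁻¹ * (α * β * α⁻¹)⁻¹ := by
    have e1 : β * (α * β * α⁻¹) * β⁻¹ * (α * β * α⁻¹)⁻¹
        = B 1 * (α₁ * B 1 * α₁⁻¹) * (B 1)⁻¹ * (α₁ * B 1 * α₁⁻¹)⁻¹ := by
      apply h8s_cm hS
      · rw [hβ, hBπ 1 hm]
      · rw [map_mul, map_mul, map_inv, map_mul, map_mul, map_inv, hα, hβ, hα₁π, hBπ 1 hm]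
    rw [e1, V3]
    calc z = (α₁ * B 1 * α₁⁻¹) * B 1 * (B 1)⁻¹ * (α₁ * B 1 * α₁⁻¹)⁻¹ * z := by group
      _ = (α₁ * B 1 * α₁⁻¹) * B 1 * z * (B 1)⁻¹ * (α₁ * B 1 * α₁⁻¹)⁻¹ := by
          simp only [mul_assoc, hzc]
  intro ζ hζ
  have h1 : (QuotientGroup.mk ζ : Γ ⧸ Subgroup.zpowers z) = 1 :=
    hker _ (by rw [hπ']; exact hζ)
  have h2 : ζ ∈ Subgroup.zpowers z := (QuotientGroup.eq_one_iff ζ).mp h1
  obtain ⟨k, rfl⟩ := Subgroup.mem_zpowers_iff.mp h2
  have hz2 : z ^ (2 : ℤ) = 1 := by rw [zpow_two]; exact hzz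
  have hk' : z ^ k = z ^ (k % 2) := by
    conv_lhs => rw [← Int.mul_ediv_add_emod k 2]
    rw [zpow_add, zpow_mul, hz2, one_zpow, one_mul]
  rcases Int.emod_two_eq_zero_or_one k with hk | hk
  · left
    rw [hk', hk, zpow_zero]
  · right
    rw [hk', hk, zpow_one]
    exact hzeq

end Cfsg.Agent.Lib.helper8
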