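import Cfsg.Agent.Lib.helper8.AltStem2

set_option autoImplicit false

namespace Cfsg.Agent.Lib.helper8

universe u v

theorem h8s_U {G : Type u} [Group G] (a b : G) (a3 : a * a * a = 1)
    (c12 : b * (a * b * a⁻¹) = (a * b * a⁻¹) * b) :
    ((a * b * a⁻¹) * (a⁻¹ * b * a) = (a⁻¹ * b * a) * (a * b * a⁻¹)) ∧
    ((a⁻¹ * b * a) * b = b * (a⁻¹ * b * a)) := by
  have aa : a * a = a⁻¹ := eq_inv_of_mul_eq_one_left a3
  have aia : a⁻¹ * a⁻¹ = a := by
    calc a⁻¹ * a⁻¹ = a⁻¹ * a⁻¹ * (a * a * a) := by rw [a3, mul_one]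
      _ = a := by group
  have c23 : (a * b * a⁻¹) * (a⁻¹ * b * a) = (a⁻¹ * b * a) * (a * b * a⁻¹) := by
    have h : a * (b * (a * b * a⁻¹)) * a⁻¹ = a * ((a * b * a⁻¹) * b) * a⁻¹ := by rw [c12]
    have l : a * (b * (a * b * a⁻¹)) * a⁻¹ = (a * b * a⁻¹) * (a⁻¹ * b * a) := by
      calc a * (b * (a * b * a⁻¹)) * a⁻¹ = (a * b * a⁻¹) * ((a * a) * b * (a⁻¹ * a⁻¹)) := by
            group
        _ = (a * b * a⁻¹) * (a⁻¹ * b * a) := by rw [aa, aia]
    have r : a * ((a * b * a⁻¹) * b) * a⁻¹ = (a⁻¹ * b * a) * (a * b * a⁻¹) := by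
      calc a * ((a * b * a⁻¹) * b) * a⁻¹ = ((a * a) * b * (a⁻¹ * a⁻¹)) * (a * b * a⁻¹) := by
            group
        _ = (a⁻¹ * b * a) * (a * b * a⁻¹) := by rw [aa, aia]
    rw [← l, ← r]
    exact h
  refine ⟨c23, ?_⟩
  have h : a * ((a * b * a⁻¹) * (a⁻¹ * b * a)) * a⁻¹
      = a * ((a⁻¹ * b * a) * (a * b * a⁻¹)) * a⁻¹ := by rw [c23]
  have l : a * ((a * b * a⁻¹) * (a⁻¹ * b * a)) * a⁻¹ = (a⁻¹ * b * a) * b := by
    calc a * ((a * b * a⁻¹) * (a⁻¹ * b * a)) * a⁻¹ = ((a * a) * b * (a⁻¹ * a⁻¹)) * b := by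
          group
      _ = (a⁻¹ * b * a) * b := by rw [aa, aia]
  have r : a * ((a⁻¹ * b * a) * (a * b * a⁻¹)) * a⁻¹ = b * (a⁻¹ * b * a) := by
    calc a * ((a⁻¹ * b * a) * (a * b * a⁻¹)) * a⁻¹ = b * ((a * a) * b * (a⁻¹ * a⁻¹)) := by
          group
      _ = b * (a⁻¹ * b * a) := by rw [aa, aia]
  rw [← l, ← r]
  exact h

theorem h8s_Vodd {G : Type u} [Group G] (a b : G) (a3 : a * a * a = 1) (bb : b * b = 1)
    (c12 : b * (a * b * a⁻¹) = (a * b * a⁻¹) * b) : (a * b) ^ 3 * (a * b) ^ 3 = 1 := by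
  obtain ⟨c23, c31⟩ := h8s_U a b a3 c12
  have aia : a⁻¹ * a⁻¹ = a := by
    calc a⁻¹ * a⁻¹ = a⁻¹ * a⁻¹ * (a * a * a) := by rw [a3, mul_one]
      _ = a := by group
  have E1 : (a * b) ^ 3 = (a * b * a⁻¹) * (a⁻¹ * b * a) * b := by
    symm
    calc (a * b * a⁻¹) * (a⁻¹ * b * a) * b = a * b * (a⁻¹ * a⁻¹) * b * a * b := by group
      _ = (a * b) ^ 3 := by rw [aia, pow_succ, pow_two]; simp only [mul_assoc]
  have s2 : (a * b * a⁻¹) * (a * b * a⁻¹) = 1 := by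
    calc (a * b * a⁻¹) * (a * b * a⁻¹) = a * (b * b) * a⁻¹ := by group
      _ = 1 := by rw [bb, mul_one, mul_inv_cancel]
  have s3 : (a⁻¹ * b * a) * (a⁻¹ * b * a) = 1 := by
    calc (a⁻¹ * b * a) * (a⁻¹ * b * a) = a⁻¹ * (b * b) * a := by group
      _ = 1 := by rw [bb, mul_one, inv_mul_cancel]
  have key : ∀ v2 v3 : G, v2 * v2 = 1 → v3 * v3 = 1 → b * v2 = v2 * b → v2 * v3 = v3 * v2 →
      v3 * b = b * v3 → (v2 * v3 * b) * (v2 * v3 * b) = 1 := by
    intro v2 v3 s2 s3 c12 c23 c31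
    calc (v2 * v3 * b) * (v2 * v3 * b) = v2 * v3 * (b * v2) * v3 * b := by group
      _ = v2 * v3 * (v2 * b) * v3 * b := by rw [c12]
      _ = v2 * (v3 * v2) * (b * v3) * b := by group
      _ = v2 * (v2 * v3) * (v3 * b) * b := by rw [← c23, ← c31]
      _ = (v2 * v2) * (v3 * v3) * (b * b) := by group
      _ = 1 := by rw [s2, s3, bb, one_mul, one_mul]
  rw [E1]
  exact key _ _ s2 s3 c12 c23 c31

@[reducible] def h8s_T {G : Type u} [Group G] (a b k : G) : Prop :=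
  k = b ∨ k = a * b * a⁻¹ ∨ k = a⁻¹ * b * a

theorem h8s_U2 {G : Type u} [Group G] (a b : G) (a3 : a * a * a = 1) (bb : b * b = 1)
    (c12 : b * (a * b * a⁻¹) = (a * b * a⁻¹) * b) (s : Set G) (hs : ∀ x ∈ s, x = a ∨ x = b) :
    ∀ x ∈ Subgroup.closure s, ∀ k : G, h8s_T a b k → h8s_T a b (x * k * x⁻¹) := by
  obtain ⟨-, c31⟩ := h8s_U a b a3 c12
  have aa : a * a = a⁻¹ := eq_inv_of_mul_eq_one_left a3
  have aia : a⁻¹ * a⁻¹ = a := by
    calc a⁻¹ * a⁻¹ = a⁻¹ * a⁻¹ * (a * a * a) := by rw [a3, mul_one]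
      _ = a := by group
  have bi : b⁻¹ = b := inv_eq_of_mul_eq_one_left bb
  have Pa : ∀ k, h8s_T a b k → h8s_T a b (a * k * a⁻¹) := by
    rintro k (rfl | rfl | rfl)
    · exact Or.inr (Or.inl rfl)
    · refine Or.inr (Or.inr ?_)
      calc a * (a * b * a⁻¹) * a⁻¹ = (a * a) * b * (a⁻¹ * a⁻¹) := by group
        _ = a⁻¹ * b * a := by rw [aa, aia]
    · refine Or.inl ?_
      group
  have Pai : ∀ k, h8s_T a b k → h8s_T a b (a⁻¹ * k * a⁻¹⁻¹) := by
    rintro k (rfl | rfl | rfl)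
    · refine Or.inr (Or.inr ?_)
      rw [inv_inv]
    · refine Or.inl ?_
      group
    · refine Or.inr (Or.inl ?_)
      calc a⁻¹ * (a⁻¹ * b * a) * a⁻¹⁻¹ = (a⁻¹ * a⁻¹) * b * (a * a) := by group
        _ = a * b * a⁻¹ := by rw [aia, aa]
  have Pb : ∀ k, h8s_T a b k → h8s_T a b (b * k * b⁻¹) := by
    rintro k (rfl | rfl | rfl)
    · refine Or.inl ?_
      group
    · refine Or.inr (Or.inl ?_)
      rw [c12]
      group
    · refine Or.inr (Or.inr ?_)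
      rw [← c31]
      group
  have Pbi : ∀ k, h8s_T a b k → h8s_T a b (b⁻¹ * k * b⁻¹⁻¹) := by
    intro k hk
    have h := Pb k hk
    rw [bi] at h
    rw [inv_inv, bi]
    exact h
  intro x hx
  refine Subgroup.closure_induction'' (p := fun x _ => ∀ k, h8s_T a b k → h8s_T a b (x * k * x⁻¹))
    ?_ ?_ ?_ ?_ hx
  · intro y hy k hk
    rcases hs y hy with h | h
    · rw [h]; exact Pa k hk
    · rw [h]; exact Pb k hk
  · intro y hy k hk
    rcases hs y hy with h | h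
    · rw [h]; exact Pai k hk
    · rw [h]; exact Pbi k hk
  · intro k hk
    rw [one_mul, inv_one, mul_one]
    exact hk
  · intro y y' _ _ ih ih' k hk
    have h := ih _ (ih' k hk)
    have e : y * y' * k * (y * y')⁻¹ = y * (y' * k * y'⁻¹) * y⁻¹ := by group
    rw [e]
    exact h

theorem h8s_invol_closure {G : Type u} [Group G] (S : Set G) (hinv : ∀ s ∈ S, s * s = 1)
    (hcomm : ∀ s ∈ S, ∀ s' ∈ S, s * s' = s' * s) : ∀ q ∈ Subgroup.closure S, q * q = 1 := by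
  have h1 : ∀ q ∈ Subgroup.closure S, ∀ s ∈ S, q * s = s * q := by
    intro q hq
    refine Subgroup.closure_induction (p := fun q _ => ∀ s ∈ S, q * s = s * q) ?_ ?_ ?_ ?_ hq
    · intro x hx s hs; exact hcomm x hx s hs
    · intro s _; rw [one_mul, mul_one]
    · intro x y _ _ ihx ihy s hs
      rw [mul_assoc, ihy s hs, ← mul_assoc, ihx s hs, mul_assoc]
    · intro x _ ihx s hs
      have h := ihx s hs
      calc x⁻¹ * s = x⁻¹ * (s * x) * x⁻¹ := by group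
        _ = x⁻¹ * (x * s) * x⁻¹ := by rw [h]
        _ = s * x⁻¹ := by group
  have h2 : ∀ q ∈ Subgroup.closure S, ∀ q' ∈ Subgroup.closure S, q * q' = q' * q := by
    intro q hq q' hq'
    refine Subgroup.closure_induction (p := fun q' _ => q * q' = q' * q) ?_ ?_ ?_ ?_ hq'
    · intro x hx; exact h1 q hq x hx
    · rw [one_mul, mul_one]
    · intro x y _ _ ihx ihy
      rw [← mul_assoc, ihx, mul_assoc, ihy, mul_assoc]
    · intro x _ ihx
      calc q * x⁻¹ = x⁻¹ * (x * q) * x⁻¹ := by group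
        _ = x⁻¹ * (q * x) * x⁻¹ := by rw [ihx]
        _ = x⁻¹ * q := by group
  intro q hq
  refine Subgroup.closure_induction (p := fun q _ => q * q = 1) ?_ ?_ ?_ ?_ hq
  · intro x hx; exact hinv x hx
  · rw [one_mul]
  · intro x y hx hy ihx ihy
    calc x * y * (x * y) = x * (y * x) * y := by group
      _ = x * (x * y) * y := by rw [h2 y hy x hx]
      _ = (x * x) * (y * y) := by group
      _ = 1 := by rw [ihx, ihy, one_mul]
  · intro x _ ihx
    calc x⁻¹ * x⁻¹ = (x * x)⁻¹ := by group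
      _ = 1 := by rw [ihx, inv_one]

end Cfsg.Agent.Lib.helper8
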