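import Cfsg.Agent.Lib.helper8.AltStem3

set_option autoImplicit false

namespace Cfsg.Agent.Lib.helper8

universe u v

theorem h8s_odd {Γ : Type u} {A : Type v} [Group Γ] [Group A] [Finite Γ] (π : Γ →* A)
    (hS : h8s_Stem π) (m : ℕ) (hm : 1 ≤ m) (hm3 : m ≠ 3) (hm4 : m ≠ 4) (t : ℕ → A)
    (hR : h8s_Rel m t) (hG : h8s_Gen m t) (hcard : 2 * Nat.card A = (m + 3).factorial)
    (T1 : ∀ ζ, π ζ = 1 → ∃ c, π c = 1 ∧ c * c = ζ)
    (T2 : ∀ c, π c = 1 → c * c = 1 → c = 1) :
    ∀ ζ, π ζ = 1 → ζ = 1 := by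
  classical
  choose x hx using fun j => hS.surj (t j)
  have INV : ∀ p w : Γ, π p = π w → p * p = 1 → w * w = 1 → p = w := by
    intro p w h hp hw
    obtain ⟨c, hc, rfl⟩ := h8s_dec π h
    have e := hS.cen c hc
    have hcc : c * c = 1 := by
      have h1 : w * c * (w * c) = w * w * (c * c) := by
        calc w * c * (w * c) = w * (c * w) * c := by group
          _ = w * (w * c) * c := by rw [← e w]
          _ = w * w * (c * c) := by group
      rw [h1, hw, one_mul] at hp
      exact hp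
    rw [T2 c hc hcc, mul_one]
  have hex : ∀ j, ∃ b : Γ, π b = t j ∧ (1 ≤ j → j ≤ m → b * b = 1) := by
    intro j
    by_cases hj : 1 ≤ j ∧ j ≤ m
    · have h1 : π ((x j * x j)⁻¹) = 1 := by
        rw [map_inv, map_mul, hx, hR.R1 j hj.1 hj.2, inv_one]
      obtain ⟨c, hc, hcc⟩ := T1 _ h1
      refine ⟨x j * c, by rw [map_mul, hx, hc, mul_one], fun _ _ => ?_⟩
      have e := hS.cen c hc
      calc x j * c * (x j * c) = x j * (c * x j) * c := by group
        _ = x j * (x j * c) * c := by rw [← e (x j)]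
        _ = x j * x j * (c * c) := by group
        _ = 1 := by rw [hcc, mul_inv_cancel]
    · exact ⟨x j, hx j, fun h1 h2 => absurd ⟨h1, h2⟩ hj⟩
  choose β hβπ hββ using hex
  have βinv : ∀ j, 1 ≤ j → j ≤ m → (β j)⁻¹ = β j := fun j h1 h2 =>
    inv_eq_of_mul_eq_one_left (hββ j h1 h2)
  intro ζ hζ
  rcases Nat.lt_or_ge m 2 with hm1 | hm2
  · obtain rfl : m = 1 := by omega
    obtain ⟨α₀, hα₀⟩ : ∃ α₀, α₀ = x 0 := ⟨_, rfl⟩
    have hα₀π : π α₀ = t 0 := by rw [hα₀]; exact hx 0
    obtain ⟨b, hb⟩ : ∃ b, b = β 1 := ⟨_, rfl⟩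
    have hbπ : π b = t 1 := by rw [hb]; exact hβπ 1
    have hbb : b * b = 1 := by rw [hb]; exact hββ 1 (by omega) (by omega)
    have A3 := hR.R0
    have Abb := hR.R1 1 (by omega) (by omega)
    have A12 := h8s_A2 hR (by omega)
    obtain ⟨A23, A31⟩ := h8s_U (t 0) (t 1) A3 A12
    have hAll := h8s_U2 (t 0) (t 1) A3 Abb A12 (Set.range (fun i : Fin (1 + 1) => t i)) (by
      rintro _ ⟨i, rfl⟩
      have hi := i.2
      rcases Nat.lt_or_ge i.val 1 with h | h
      · left
        have h0 : i.val = 0 := by omega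
        show t i.val = t 0
        rw [h0]
      · right
        have h1 : i.val = 1 := by omega
        show t i.val = t 1
        rw [h1])
    have hconj : ∀ g : Γ, g * b * g⁻¹ = b ∨ g * b * g⁻¹ = α₀ * b * α₀⁻¹ ∨
        g * b * g⁻¹ = α₀⁻¹ * b * α₀ := by
      intro g
      have hg : π g ∈ Subgroup.closure (Set.range (fun i : Fin (1 + 1) => t i)) := by
        have h : Subgroup.closure (Set.range (fun i : Fin (1 + 1) => t i)) = ⊤ := hG
        rw [h]
        exact Subgroup.mem_top _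
      have hinv : (g * b * g⁻¹) * (g * b * g⁻¹) = 1 := by
        calc (g * b * g⁻¹) * (g * b * g⁻¹) = g * (b * b) * g⁻¹ := by group
          _ = 1 := by rw [hbb, mul_one, mul_inv_cancel]
      rcases hAll (π g) hg (t 1) (Or.inl rfl) with h | h | h
      · left
        refine INV _ _ ?_ hinv hbb
        rw [map_mul, map_mul, map_inv, hbπ]
        exact h
      · right; left
        refine INV _ _ ?_ hinv ?_
        · rw [map_mul, map_mul, map_inv, hbπ, h, map_mul, map_mul, map_inv, hα₀π, hbπ]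
        · calc (α₀ * b * α₀⁻¹) * (α₀ * b * α₀⁻¹) = α₀ * (b * b) * α₀⁻¹ := by group
            _ = 1 := by rw [hbb, mul_one, mul_inv_cancel]
      · right; right
        refine INV _ _ ?_ hinv ?_
        · rw [map_mul, map_mul, map_inv, hbπ, h, map_mul, map_mul, map_inv, hα₀π, hbπ]
        · calc (α₀⁻¹ * b * α₀) * (α₀⁻¹ * b * α₀) = α₀⁻¹ * (b * b) * α₀ := by group
            _ = 1 := by rw [hbb, mul_one, inv_mul_cancel]
    obtain ⟨S, hSdef⟩ : ∃ S : Set Γ,
        S = {q | q = b ∨ q = α₀ * b * α₀⁻¹ ∨ q = α₀⁻¹ * b * α₀} := ⟨_, rfl⟩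
    have hSinv : ∀ s ∈ S, s * s = 1 := by
      intro s hs
      rw [hSdef] at hs
      rcases hs with h | h | h
      · rw [h]; exact hbb
      · rw [h]
        calc (α₀ * b * α₀⁻¹) * (α₀ * b * α₀⁻¹) = α₀ * (b * b) * α₀⁻¹ := by group
          _ = 1 := by rw [hbb, mul_one, mul_inv_cancel]
      · rw [h]
        calc (α₀⁻¹ * b * α₀) * (α₀⁻¹ * b * α₀) = α₀⁻¹ * (b * b) * α₀ := by group
          _ = 1 := by rw [hbb, mul_one, inv_mul_cancel]
    have hSπ : ∀ s ∈ S, h8s_T (t 0) (t 1) (π s) := by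
      intro s hs
      rw [hSdef] at hs
      rcases hs with h | h | h
      · exact Or.inl (by rw [h]; exact hbπ)
      · exact Or.inr (Or.inl (by rw [h, map_mul, map_mul, map_inv, hα₀π, hbπ]))
      · exact Or.inr (Or.inr (by rw [h, map_mul, map_mul, map_inv, hα₀π, hbπ]))
    have hAcomm : ∀ p q : A, h8s_T (t 0) (t 1) p → h8s_T (t 0) (t 1) q → p * q = q * p := by
      rintro p q (rfl | rfl | rfl) (rfl | rfl | rfl)
      · rfl
      · exact A12
      · exact A31.symm
      · exact A12.symm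
      · rfl
      · exact A23
      · exact A31
      · exact A23.symm
      · rfl
    have hScomm : ∀ s ∈ S, ∀ s' ∈ S, s * s' = s' * s := by
      intro s hs s' hs'
      have h : s * s' * s⁻¹ = s' := by
        refine INV _ _ ?_ ?_ (hSinv s' hs')
        · rw [map_mul, map_mul, map_inv, hAcomm _ _ (hSπ s hs) (hSπ s' hs')]
          group
        · calc (s * s' * s⁻¹) * (s * s' * s⁻¹) = s * (s' * s') * s⁻¹ := by group
            _ = 1 := by rw [hSinv s' hs', mul_one, mul_inv_cancel]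
      calc s * s' = (s * s' * s⁻¹) * s := by group
        _ = s' * s := by rw [h]
    have hQsq := h8s_invol_closure S hSinv hScomm
    have hNle : Subgroup.normalClosure ({b} : Set Γ) ≤ Subgroup.closure S := by
      show Subgroup.closure (Group.conjugatesOfSet ({b} : Set Γ)) ≤ Subgroup.closure S
      apply Subgroup.closure_mono
      intro q hq
      rw [Group.mem_conjugatesOfSet_iff] at hq
      obtain ⟨b', hb', hc⟩ := hq
      rw [Set.mem_singleton_iff] at hb'
      rw [hb'] at hc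
      obtain ⟨g, hg⟩ := isConj_iff.mp hc
      rw [hSdef, ← hg]
      exact hconj g
    obtain ⟨y, hy0, hy1⟩ : ∃ y : ℕ → Γ, y 0 = α₀ ∧ y 1 = b :=
      ⟨fun j => if j = 0 then α₀ else b, rfl, rfl⟩
    have hGy : h8s_Gen 1 y := h8s_gen_lifts hS 1 t hG y (by
      intro j hj
      rcases Nat.lt_or_ge j 1 with h | h
      · have h0 : j = 0 := by omega
        rw [h0, hy0]
        exact hα₀π
      · have h1 : j = 1 := by omega
        rw [h1, hy1]
        exact hbπ)
    have hpow : ∀ g : Γ, ∃ k : ℤ,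
        (QuotientGroup.mk g : Γ ⧸ Subgroup.normalClosure ({b} : Set Γ))
          = (QuotientGroup.mk α₀) ^ k := by
      intro g
      have hg : g ∈ Subgroup.closure (Set.range (fun i : Fin (1 + 1) => y i)) := by
        have h : Subgroup.closure (Set.range (fun i : Fin (1 + 1) => y i)) = ⊤ := hGy
        rw [h]
        exact Subgroup.mem_top _
      refine Subgroup.closure_induction (p := fun g _ => ∃ k : ℤ,
        (QuotientGroup.mk g : Γ ⧸ Subgroup.normalClosure ({b} : Set Γ))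
          = (QuotientGroup.mk α₀) ^ k) ?_ ?_ ?_ ?_ hg
      · rintro _ ⟨i, rfl⟩
        have hi := i.2
        rcases Nat.lt_or_ge i.val 1 with h | h
        · have h0 : i.val = 0 := by omega
          refine ⟨1, ?_⟩
          show (QuotientGroup.mk (y i.val) : Γ ⧸ Subgroup.normalClosure ({b} : Set Γ)) = _
          rw [h0, hy0, zpow_one]
        · have h1 : i.val = 1 := by omega
          refine ⟨0, ?_⟩
          show (QuotientGroup.mk (y i.val) : Γ ⧸ Subgroup.normalClosure ({b} : Set Γ)) = _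
          rw [h1, hy1, zpow_zero]
          exact (QuotientGroup.eq_one_iff b).mpr
            (Subgroup.subset_normalClosure (Set.mem_singleton b))
      · exact ⟨0, by rw [zpow_zero]; rfl⟩
      · rintro p q _ _ ⟨k, hk⟩ ⟨l, hl⟩
        exact ⟨k + l, by rw [QuotientGroup.mk_mul, hk, hl, zpow_add]⟩
      · rintro p _ ⟨k, hk⟩
        exact ⟨-k, by rw [QuotientGroup.mk_inv, hk, zpow_neg]⟩
    have hcomN : commutator Γ ≤ Subgroup.normalClosure ({b} : Set Γ) := by
      rw [commutator_eq_closure, Subgroup.closure_le]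
      rintro _ ⟨g, h, rfl⟩
      obtain ⟨k, hk⟩ := hpow g
      obtain ⟨l, hl⟩ := hpow h
      apply (QuotientGroup.eq_one_iff _).mp
      rw [commutatorElement_def, QuotientGroup.mk_mul, QuotientGroup.mk_mul,
        QuotientGroup.mk_mul, QuotientGroup.mk_inv, QuotientGroup.mk_inv, hk, hl]
      group
    have hζQ : ζ ∈ Subgroup.closure S := hNle (hcomN (hS.der ζ hζ))
    exact T2 ζ hζ (hQsq ζ hζQ)
  · have hβc : ∀ i j, 1 ≤ i → i + 1 < j → j ≤ m → β i * β j = β j * β i := by
      intro i j hi hij hj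
      have h : β j * β i * (β j)⁻¹ = β i := by
        refine INV _ _ ?_ ?_ (hββ i hi (by omega))
        · rw [map_mul, map_mul, map_inv, hβπ, hβπ, ← hR.R2 i j hi hij hj]
          group
        · calc β j * β i * (β j)⁻¹ * (β j * β i * (β j)⁻¹) = β j * (β i * β i) * (β j)⁻¹ := by
                group
            _ = 1 := by rw [hββ i hi (by omega), mul_one, mul_inv_cancel]
      calc β i * β j = β i * β j := rfl
        _ = (β j * β i * (β j)⁻¹) * β j := by rw [h]
        _ = β j * β i := by group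
    have hβ3 : ∀ i, 1 ≤ i → i + 1 ≤ m → (β i * β (i + 1)) ^ 3 = 1 := by
      intro i hi him
      obtain ⟨w, hw⟩ : ∃ w, w = (β i * β (i + 1)) ^ 3 := ⟨_, rfl⟩
      have hwπ : π w = 1 := by
        rw [hw, map_pow, map_mul, hβπ, hβπ]
        exact h8s_P3 hR i him
      have hconj : β i * (β i * β (i + 1)) * (β i)⁻¹ = (β i * β (i + 1))⁻¹ := by
        rw [mul_inv_rev, βinv i hi (by omega), βinv (i + 1) (by omega) him]
        calc β i * (β i * β (i + 1)) * β i = (β i * β i) * β (i + 1) * β i := by group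
          _ = β (i + 1) * β i := by rw [hββ i hi (by omega), one_mul]
      have h1 : β i * w * (β i)⁻¹ = w⁻¹ := by
        rw [hw, ← conj_pow, hconj, inv_pow]
      have h2 : β i * w * (β i)⁻¹ = w := h8s_cen' hS hwπ _
      have h3 : w * w = 1 := by
        rw [h2] at h1
        calc w * w = w * w⁻¹ := by rw [← h1]
          _ = 1 := mul_inv_cancel w
      rw [← hw]
      exact T2 w hwπ h3
    obtain ⟨α₀, hα₀⟩ : ∃ α₀, α₀ = x 0 := ⟨_, rfl⟩
    have hα₀π : π α₀ = t 0 := by rw [hα₀]; exact hx 0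
    have hE : ∀ i j, 2 ≤ i → i + 1 < j → j ≤ m →
        β j * α₀ * (β j)⁻¹ = β i * α₀ * (β i)⁻¹ := by
      intro i j hi hij hj
      obtain ⟨h, hh⟩ : ∃ h, h = β i * β j := ⟨_, rfl⟩
      have hh2 : h * h = 1 := by
        rw [hh]
        calc β i * β j * (β i * β j) = β i * (β j * β i) * β j := by group
          _ = β i * (β i * β j) * β j := by rw [hβc i j (by omega) hij hj]
          _ = (β i * β i) * (β j * β j) := by group
          _ = 1 := by rw [hββ i (by omega) (by omega), hββ j (by omega) hj, one_mul]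
      obtain ⟨δ, hδ⟩ : ∃ δ, δ = h * α₀ * h⁻¹ * α₀⁻¹ := ⟨_, rfl⟩
      have hδπ : π δ = 1 := by
        rw [hδ, hh]
        simp only [map_mul, map_inv, hβπ, hα₀π]
        have e1 := h8s_A4 hR j (by omega) hj
        have e2 := h8s_A4 hR i hi (by omega)
        calc t i * t j * t 0 * (t i * t j)⁻¹ * (t 0)⁻¹
            = t i * (t j * t 0 * (t j)⁻¹) * (t i)⁻¹ * (t 0)⁻¹ := by group
          _ = (t i * t 0 * (t i)⁻¹)⁻¹ * (t 0)⁻¹ := by rw [e1]; group
          _ = 1 := by rw [e2]; group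
      have h1 : h * α₀ * h⁻¹ = δ * α₀ := by rw [hδ]; group
      have hδc := hS.cen δ hδπ
      have h2 : δ * δ = 1 := by
        have e : h * (h * α₀ * h⁻¹) * h⁻¹ = α₀ := by
          calc h * (h * α₀ * h⁻¹) * h⁻¹ = (h * h) * α₀ * (h * h)⁻¹ := by group
            _ = α₀ := by rw [hh2]; group
        have e' : h * (h * α₀ * h⁻¹) * h⁻¹ = δ * δ * α₀ := by
          calc h * (h * α₀ * h⁻¹) * h⁻¹ = h * (δ * α₀) * h⁻¹ := by rw [h1]
            _ = (h * δ) * α₀ * h⁻¹ := by group
            _ = (δ * h) * α₀ * h⁻¹ := by rw [hδc h]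
            _ = δ * (h * α₀ * h⁻¹) := by group
            _ = δ * (δ * α₀) := by rw [h1]
            _ = δ * δ * α₀ := by group
        rw [e] at e'
        exact mul_right_cancel (b := α₀) (by rw [← e', one_mul])
      have hδ1 := T2 δ hδπ h2
      rw [hδ1, one_mul, hh] at h1
      calc β j * α₀ * (β j)⁻¹ = (β i)⁻¹ * (β i * β j * α₀ * (β i * β j)⁻¹) * β i := by group
        _ = (β i)⁻¹ * α₀ * β i := by rw [h1]
        _ = β i * α₀ * (β i)⁻¹ := by rw [βinv i (by omega) (by omega)]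
    have hE2 : ∀ j, 2 ≤ j → j ≤ m → β j * α₀ * (β j)⁻¹ = β 2 * α₀ * (β 2)⁻¹ := by
      intro j hj hjm
      rcases Nat.lt_or_ge j 4 with h4 | h4
      · rcases Nat.lt_or_ge j 3 with h3 | h3
        · have h2 : j = 2 := by omega
          rw [h2]
        · have h3' : j = 3 := by omega
          have h5 : 5 ≤ m := by omega
          rw [h3', ← hE 3 5 (by omega) (by omega) h5, hE 2 5 (by omega) (by omega) h5]
      · exact hE 2 j (by omega) (by omega) hjm
    obtain ⟨d, hd⟩ : ∃ d, d = β 2 * α₀ * (β 2)⁻¹ * α₀ := ⟨_, rfl⟩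
    have hdπ : π d = 1 := by
      rw [hd, map_mul, map_mul, map_mul, map_inv, hβπ, hα₀π, h8s_A4 hR 2 (by omega) hm2]
      group
    obtain ⟨c, hcπ, hcc⟩ := T1 d⁻¹ (by rw [map_inv, hdπ, inv_one])
    obtain ⟨α, hα⟩ : ∃ α, α = α₀ * c := ⟨_, rfl⟩
    have hαπ : π α = t 0 := by rw [hα, map_mul, hα₀π, hcπ, mul_one]
    have hcc' := hS.cen c hcπ
    have hdc' := hS.cen d hdπ
    have hβα : ∀ j, 2 ≤ j → j ≤ m → β j * α * (β j)⁻¹ = α⁻¹ := by
      intro j hj hjm
      have e1 : β j * α₀ * (β j)⁻¹ = d * α₀⁻¹ := by rw [hE2 j hj hjm, hd]; group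
      have e2 : d * c * c = 1 := by rw [mul_assoc, hcc, mul_inv_cancel]
      have e3 : β j * (α₀ * c) * (β j)⁻¹ = d * α₀⁻¹ * c := by
        calc β j * (α₀ * c) * (β j)⁻¹ = β j * α₀ * (c * (β j)⁻¹) := by group
          _ = β j * α₀ * ((β j)⁻¹ * c) := by rw [← hcc' (β j)⁻¹]
          _ = (β j * α₀ * (β j)⁻¹) * c := by group
          _ = d * α₀⁻¹ * c := by rw [e1]
      rw [hα, e3]
      apply eq_inv_of_mul_eq_one_right
      calc (α₀ * c) * (d * α₀⁻¹ * c) = α₀ * (c * (d * α₀⁻¹)) * c := by group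
        _ = α₀ * ((d * α₀⁻¹) * c) * c := by rw [← hcc' (d * α₀⁻¹)]
        _ = (α₀ * d) * α₀⁻¹ * (c * c) := by group
        _ = (d * α₀) * α₀⁻¹ * (c * c) := by rw [hdc' α₀]
        _ = d * c * c := by group
        _ = 1 := e2
    have hα3 : α ^ 3 = 1 := by
      obtain ⟨ζ', hζ'⟩ : ∃ ζ', ζ' = α ^ 3 := ⟨_, rfl⟩
      have hζ'π : π ζ' = 1 := by
        rw [hζ', map_pow, hαπ, pow_succ, pow_two]
        exact hR.R0
      have h1 : β 2 * ζ' * (β 2)⁻¹ = ζ'⁻¹ := by
        rw [hζ', ← conj_pow, hβα 2 (by omega) hm2, inv_pow]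
      have h2 : β 2 * ζ' * (β 2)⁻¹ = ζ' := h8s_cen' hS hζ'π _
      have h3 : ζ' * ζ' = 1 := by
        rw [h2] at h1
        calc ζ' * ζ' = ζ' * ζ'⁻¹ := by rw [← h1]
          _ = 1 := mul_inv_cancel ζ'
      rw [← hζ']
      exact T2 ζ' hζ'π h3
    have a3 : α * α * α = 1 := by rw [← hα3, pow_succ, pow_two]
    have hb1 := hββ 1 (by omega) hm
    have hv12 : β 1 * (α * β 1 * α⁻¹) = (α * β 1 * α⁻¹) * β 1 := by
      have h : (α * β 1 * α⁻¹) * β 1 * (α * β 1 * α⁻¹)⁻¹ = β 1 := by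
        refine INV _ _ ?_ ?_ hb1
        · rw [map_mul, map_mul, map_inv, map_mul, map_mul, map_inv, hαπ, hβπ,
            ← h8s_A2 hR hm]
          group
        · calc (α * β 1 * α⁻¹) * β 1 * (α * β 1 * α⁻¹)⁻¹
                * ((α * β 1 * α⁻¹) * β 1 * (α * β 1 * α⁻¹)⁻¹)
              = (α * β 1 * α⁻¹) * (β 1 * β 1) * (α * β 1 * α⁻¹)⁻¹ := by group
            _ = 1 := by rw [hb1, mul_one, mul_inv_cancel]
      calc β 1 * (α * β 1 * α⁻¹)
          = ((α * β 1 * α⁻¹) * β 1 * (α * β 1 * α⁻¹)⁻¹) * (α * β 1 * α⁻¹) := by rw [h]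
        _ = (α * β 1 * α⁻¹) * β 1 := by group
    have hww := h8s_Vodd α (β 1) a3 hb1 hv12
    have hαβ3 : (α * β 1) ^ 3 = 1 := by
      apply T2 _ _ hww
      rw [map_pow, map_mul, hαπ, hβπ]
      exact h8s_P3 hR 0 (by omega)
    obtain ⟨y, hy0, hyj⟩ : ∃ y : ℕ → Γ, y 0 = α ∧ ∀ j, 1 ≤ j → y j = β j :=
      ⟨fun j => if j = 0 then α else β j, rfl, fun j hj => if_neg (by omega)⟩
    have hRy : h8s_Rel m y := by
      apply h8s_rel_of_pow
      · rw [hy0]; exact a3
      · intro j h1 h2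
        rw [hyj j h1]
        exact hββ j h1 h2
      · intro i hi
        rcases Nat.eq_zero_or_pos i with h0 | h0
        · rw [h0, hy0, hyj (0 + 1) (by omega)]
          exact hαβ3
        · rw [hyj i h0, hyj (i + 1) (by omega)]
          exact hβ3 i h0 hi
      · intro i j hij hj
        rw [pow_two]
        rcases Nat.eq_zero_or_pos i with h0 | h0
        · rw [h0, hy0, hyj j (by omega)]
          calc (α * β j) * (α * β j) = α * (β j * α * (β j)⁻¹) * (β j * β j) := by group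
            _ = 1 := by rw [hβα j (by omega) hj, hββ j (by omega) hj]; group
        · rw [hyj i h0, hyj j (by omega)]
          calc (β i * β j) * (β i * β j) = β i * (β j * β i) * β j := by group
            _ = β i * (β i * β j) * β j := by rw [hβc i j h0 hij hj]
            _ = (β i * β i) * (β j * β j) := by group
            _ = 1 := by rw [hββ i h0 (by omega), hββ j (by omega) hj, one_mul]
    have hyπ : ∀ j, j ≤ m → π (y j) = t j := by
      intro j _
      rcases Nat.eq_zero_or_pos j with h0 | h0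
      · rw [h0, hy0]; exact hαπ
      · rw [hyj j h0]; exact hβπ j
    exact h8s_core π hS m t hG hcard y hyπ hRy ζ hζ

end Cfsg.Agent.Lib.helper8
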