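import Cfsg.Agent.Lib.helper8.AltStem4

set_option autoImplicit false

namespace Cfsg.Agent.Lib.helper8

universe u v

theorem h8s_main {Γ : Type u} {A : Type v} [Group Γ] [Group A] [Finite Γ] (π : Γ →* A)
    (hS : h8s_Stem π) (m : ℕ) (hm : 1 ≤ m) (hm3 : m ≠ 3) (hm4 : m ≠ 4) (t : ℕ → A)
    (hR : h8s_Rel m t) (hG : h8s_Gen m t) (hcard : 2 * Nat.card A = (m + 3).factorial) :
    Nat.card π.ker ≤ 2 := by
  classical
  obtain ⟨α, hα⟩ := hS.surj (t 0)
  obtain ⟨β, hβ⟩ := hS.surj (t 1)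
  obtain ⟨e, he⟩ : ∃ e, e = β * (α * β * α⁻¹) * β⁻¹ * (α * β * α⁻¹)⁻¹ := ⟨_, rfl⟩
  obtain ⟨Sq, hSq⟩ : ∃ Sq : Subgroup Γ,
      Sq = Subgroup.closure {q | ∃ a, π a = 1 ∧ q = a * a} := ⟨_, rfl⟩
  have hSqmem : ∀ q ∈ Sq, ∃ a, π a = 1 ∧ q = a * a := by
    intro q hq
    rw [hSq] at hq
    refine Subgroup.closure_induction (p := fun q _ => ∃ a, π a = 1 ∧ q = a * a) ?_ ?_ ?_ ?_ hq
    · intro q hq
      exact hq
    · exact ⟨1, map_one π, by rw [mul_one]⟩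
    · rintro p q _ _ ⟨a, ha, rfl⟩ ⟨b, hb, rfl⟩
      refine ⟨a * b, by rw [map_mul, ha, hb, mul_one], ?_⟩
      have e1 := hS.cen b hb a
      calc a * a * (b * b) = a * (a * b) * b := by group
        _ = a * (b * a) * b := by rw [e1]
        _ = a * b * (a * b) := by group
    · rintro p _ ⟨a, ha, rfl⟩
      exact ⟨a⁻¹, by rw [map_inv, ha, inv_one], by group⟩
  have hSqk : ∀ w ∈ Sq, π w = 1 := by
    intro w hw
    obtain ⟨a, ha, rfl⟩ := hSqmem w hw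
    rw [map_mul, ha, mul_one]
  haveI : Sq.Normal := h8s_normal_of_central _ (fun w hw g => hS.cen w (hSqk w hw) g)
  obtain ⟨π₁, hπ₁, hS₁⟩ := h8s_quot π hS Sq hSqk
  have hexp₁ : ∀ z : Γ ⧸ Sq, π₁ z = 1 → z * z = 1 := by
    intro z hz
    obtain ⟨g, rfl⟩ := QuotientGroup.mk_surjective z
    rw [hπ₁] at hz
    rw [← QuotientGroup.mk_mul]
    apply (QuotientGroup.eq_one_iff _).mpr
    rw [hSq]
    exact Subgroup.subset_closure ⟨g, hz, rfl⟩
  have h2 := h8s_two π₁ hS₁ m hm t hR hG hcard hexp₁ (QuotientGroup.mk α) (QuotientGroup.mk β)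
    (by rw [hπ₁]; exact hα) (by rw [hπ₁]; exact hβ)
  have hdich : ∀ ζ, π ζ = 1 → ∃ a, π a = 1 ∧ (ζ = a * a ∨ ζ = e * (a * a)) := by
    intro ζ hζ
    rcases h2 (QuotientGroup.mk ζ) (by rw [hπ₁]; exact hζ) with h | h
    · have h' : ζ ∈ Sq := (QuotientGroup.eq_one_iff ζ).mp h
      obtain ⟨a, ha, rfl⟩ := hSqmem ζ h'
      exact ⟨a, ha, Or.inl rfl⟩
    · have h' : (QuotientGroup.mk ζ : Γ ⧸ Sq) = QuotientGroup.mk e := by
        rw [h, he]
        rfl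
      have h'' : e⁻¹ * ζ ∈ Sq := QuotientGroup.eq.mp h'.symm
      obtain ⟨a, ha, hq⟩ := hSqmem _ h''
      exact ⟨a, ha, Or.inr (by rw [← hq]; group)⟩
  have heπ : π e = 1 := by
    rw [he]
    simp only [map_mul, map_inv, hα, hβ]
    rw [h8s_A2 hR hm]
    group
  have hee : e * e = 1 := by
    obtain ⟨w, hw⟩ : ∃ w, w = α * β * α⁻¹ := ⟨_, rfl⟩
    have hww : π (w * w) = 1 := by
      rw [hw]
      simp only [map_mul, map_inv, hα, hβ]
      calc t 0 * t 1 * (t 0)⁻¹ * (t 0 * t 1 * (t 0)⁻¹) = t 0 * (t 1 * t 1) * (t 0)⁻¹ := by group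
        _ = 1 := by rw [hR.R1 1 (by omega) hm, mul_one, mul_inv_cancel]
    have h1 : β * w * β⁻¹ = e * w := by rw [he, ← hw]; group
    have h2' : β * (w * w) * β⁻¹ = w * w := h8s_cen' hS hww β
    have hec := hS.cen e heπ
    have h3 : (e * w) * (e * w) = e * e * (w * w) := by
      calc (e * w) * (e * w) = e * (w * e) * w := by group
        _ = e * (e * w) * w := by rw [hec w]
        _ = e * e * (w * w) := by group
    have h4 : (β * w * β⁻¹) * (β * w * β⁻¹) = β * (w * w) * β⁻¹ := by group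
    rw [h1, h3, h2'] at h4
    exact mul_right_cancel (b := w * w) (by rw [h4, one_mul])
  have hWk : ∀ w ∈ Subgroup.zpowers e, π w = 1 := by
    intro w hw
    obtain ⟨k, rfl⟩ := Subgroup.mem_zpowers_iff.mp hw
    rw [map_zpow, heπ, one_zpow]
  haveI : (Subgroup.zpowers e).Normal :=
    h8s_normal_of_central _ (fun w hw g => hS.cen w (hWk w hw) g)
  obtain ⟨π₂, hπ₂, hS₂⟩ := h8s_quot π hS (Subgroup.zpowers e) hWk
  have hemk : (QuotientGroup.mk e : Γ ⧸ Subgroup.zpowers e) = 1 :=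
    (QuotientGroup.eq_one_iff e).mpr (Subgroup.mem_zpowers e)
  have T1 : ∀ ζ : Γ ⧸ Subgroup.zpowers e, π₂ ζ = 1 → ∃ c, π₂ c = 1 ∧ c * c = ζ := by
    intro ζ hζ
    obtain ⟨g, rfl⟩ := QuotientGroup.mk_surjective ζ
    rw [hπ₂] at hζ
    obtain ⟨a, ha, h | h⟩ := hdich g hζ
    · exact ⟨QuotientGroup.mk a, by rw [hπ₂]; exact ha, by rw [h]; rfl⟩
    · refine ⟨QuotientGroup.mk a, by rw [hπ₂]; exact ha, ?_⟩
      rw [h, QuotientGroup.mk_mul, hemk, one_mul]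
      rfl
  have T2 : ∀ c : Γ ⧸ Subgroup.zpowers e, π₂ c = 1 → c * c = 1 → c = 1 := by
    intro c hc hcc
    have hsurj : Function.Surjective (fun x : π₂.ker =>
        (⟨(x : Γ ⧸ Subgroup.zpowers e) * x, π₂.ker.mul_mem x.2 x.2⟩ : π₂.ker)) := by
      intro x
      obtain ⟨d, hd, hdd⟩ := T1 x.1 (MonoidHom.mem_ker.mp x.2)
      exact ⟨⟨d, MonoidHom.mem_ker.mpr hd⟩, Subtype.ext hdd⟩
    have hinj := Finite.injective_iff_surjective.mpr hsurj
    have h1 : (⟨c, MonoidHom.mem_ker.mpr hc⟩ : π₂.ker) = 1 := by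
      apply hinj
      apply Subtype.ext
      show c * c = (1 : Γ ⧸ Subgroup.zpowers e) * 1
      rw [hcc, one_mul]
    exact congrArg Subtype.val h1
  have hodd := h8s_odd π₂ hS₂ m hm hm3 hm4 t hR hG hcard T1 T2
  have hsub : ∀ ζ, π ζ = 1 → ζ = 1 ∨ ζ = e := by
    intro ζ hζ
    have h1 : (QuotientGroup.mk ζ : Γ ⧸ Subgroup.zpowers e) = 1 :=
      hodd _ (by rw [hπ₂]; exact hζ)
    have h2 : ζ ∈ Subgroup.zpowers e := (QuotientGroup.eq_one_iff ζ).mp h1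
    obtain ⟨k, rfl⟩ := Subgroup.mem_zpowers_iff.mp h2
    have hz2 : e ^ (2 : ℤ) = 1 := by rw [zpow_two]; exact hee
    have hk' : e ^ k = e ^ (k % 2) := by
      conv_lhs => rw [← Int.mul_ediv_add_emod k 2]
      rw [zpow_add, zpow_mul, hz2, one_zpow, one_mul]
    rcases Int.emod_two_eq_zero_or_one k with hk | hk
    · left
      rw [hk', hk, zpow_zero]
    · right
      rw [hk', hk, zpow_one]
  have hinj : Function.Injective (fun ζ : π.ker => (decide ((ζ : Γ) = 1) : Bool)) := by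
    intro ζ ζ' h
    apply Subtype.ext
    have h' : ((ζ : Γ) = 1) ↔ ((ζ' : Γ) = 1) := by
      simpa using h
    rcases hsub ζ (MonoidHom.mem_ker.mp ζ.2) with h1 | h1
    · rw [h1, h'.mp h1]
    · rcases hsub ζ' (MonoidHom.mem_ker.mp ζ'.2) with h2 | h2
      · rw [h2, h'.mpr h2]
      · rw [h1, h2]
  have hle := Nat.card_le_card_of_injective _ hinj
  have hb : Nat.card Bool = 2 := by simp
  rw [hb] at hle
  exact hle

end Cfsg.Agent.Lib.helper8
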