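import Cfsg.Agent.Lib.helper8.AltStem5

set_option autoImplicit false

namespace Cfsg.Agent.Lib.helper8

open scoped Pointwise

universe u v

theorem h8s_norm {Γ : Type u} {A : Type v} [Group Γ] [Group A] (π : Γ →* A)
    (hsurj : Function.Surjective π) (hcen : ∀ z, π z = 1 → ∀ g, g * z = z * g)
    (m : ℕ) (hm : 1 ≤ m) (t : ℕ → A) (hR : h8s_Rel m t)
    (hexp : ∀ z, π z = 1 → z * z = 1) :
    ∃ (B : ℕ → Γ) (z : Γ), π z = 1 ∧ (∀ j, j ≤ m → π (B j) = t j) ∧ B 0 ^ 3 = 1 ∧
      (∀ j, 1 ≤ j → j ≤ m → B j * B j = z) ∧ (∀ i, i + 1 ≤ m → (B i * B (i + 1)) ^ 3 = 1) ∧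
      (∀ i j, i + 1 < j → j ≤ m → (B i * B j) * (B i * B j) = z) := by
  classical
  choose x hx using fun j => hsurj (t j)
  have cen' : ∀ c : Γ, π c = 1 → ∀ g : Γ, g * c * g⁻¹ = c := by
    intro c hc g
    rw [hcen c hc g, mul_inv_cancel_right]
  have SQ : ∀ p w : Γ, π p = π w → p * p = w * w := by
    intro p w h
    obtain ⟨c, hc, rfl⟩ := h8s_dec π h
    have e := hcen c hc
    calc w * c * (w * c) = w * (c * w) * c := by group
      _ = w * (w * c) * c := by rw [← e w]
      _ = w * w * (c * c) := by group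
      _ = w * w := by rw [hexp c hc, mul_one]
  have cube4 : ∀ w : Γ, π w = 1 → w * w ^ 3 = 1 := by
    intro w hw
    have h2 := hexp w hw
    calc w * w ^ 3 = (w * w) * (w * w) := by rw [pow_succ, pow_two]; simp only [mul_assoc]
      _ = 1 := by rw [h2, one_mul]
  have CU : ∀ p w : Γ, π p = π w → p ^ 3 = 1 → w ^ 3 = 1 → p = w := by
    intro p w h hp hw
    obtain ⟨c, hc, rfl⟩ := h8s_dec π h
    have e : Commute w c := hcen c hc w
    rw [e.mul_pow, hw, one_mul] at hp
    have hc1 : c = 1 := by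
      have h2 := hexp c hc
      calc c = c * (c * c) := by rw [h2, mul_one]
        _ = c ^ 3 := by rw [pow_succ, pow_two, mul_assoc]
        _ = 1 := hp
    rw [hc1, mul_one]
  obtain ⟨ζ₀, hζ₀⟩ : ∃ ζ₀, ζ₀ = (x 0) ^ 3 := ⟨_, rfl⟩
  have hζ₀π : π ζ₀ = 1 := by
    rw [hζ₀, map_pow, hx, pow_succ, pow_two]
    exact hR.R0
  obtain ⟨α₁, hα₁⟩ : ∃ α₁, α₁ = x 0 * ζ₀ := ⟨_, rfl⟩
  have hα₁π : π α₁ = t 0 := by rw [hα₁, map_mul, hx, hζ₀π, mul_one]
  have hα₁3 : α₁ ^ 3 = 1 := by
    have e : Commute (x 0) ζ₀ := hcen ζ₀ hζ₀π (x 0)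
    rw [hα₁, e.mul_pow, ← hζ₀]
    exact cube4 ζ₀ hζ₀π
  obtain ⟨B, hB0, hBs⟩ : ∃ B : ℕ → Γ, B 0 = α₁ ∧
      ∀ i, B (i + 1) = x (i + 1) * (B i * x (i + 1)) ^ 3 :=
    ⟨fun i => Nat.rec (motive := fun _ => Γ) α₁
      (fun i acc => x (i + 1) * (acc * x (i + 1)) ^ 3) i, rfl, fun i => rfl⟩
  have hBπ : ∀ i, i ≤ m → π (B i) = t i := by
    intro i
    induction i with
    | zero => intro _; rw [hB0]; exact hα₁π
    | succ i ih =>
      intro hi
      rw [hBs, map_mul, map_pow, map_mul, ih (by omega), hx, h8s_P3 hR i hi, mul_one]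
  have hB3 : ∀ i, i + 1 ≤ m → (B i * B (i + 1)) ^ 3 = 1 := by
    intro i hi
    obtain ⟨w, hw⟩ : ∃ w, w = (B i * x (i + 1)) ^ 3 := ⟨_, rfl⟩
    have hwπ : π w = 1 := by
      rw [hw, map_pow, map_mul, hBπ i (by omega), hx]
      exact h8s_P3 hR i hi
    have e : Commute (B i * x (i + 1)) w := hcen w hwπ _
    rw [hBs, ← hw, ← mul_assoc, e.mul_pow, ← hw]
    exact cube4 w hwπ
  obtain ⟨z, hz⟩ : ∃ z, z = B 1 * B 1 := ⟨_, rfl⟩
  have hzπ : π z = 1 := by
    rw [hz, map_mul, hBπ 1 hm]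
    exact hR.R1 1 (by omega) hm
  have hzz : z * z = 1 := hexp z hzπ
  have hzc : ∀ g, z * g = g * z := fun g => (hcen z hzπ g).symm
  have hBsq : ∀ j, 1 ≤ j → j ≤ m → B j * B j = z := by
    intro j hj
    induction j, hj using Nat.le_induction with
    | base => intro _; exact hz.symm
    | succ j hj ih =>
      intro hjm
      have ihj := ih (by omega)
      have hπ : π ((B j * B (j + 1)) * B j * (B j * B (j + 1))⁻¹) = π (B (j + 1)) := by
        rw [map_mul, map_mul, map_inv, map_mul, hBπ j (by omega), hBπ (j + 1) hjm]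
        exact h8s_braid_conj (hR.R1 j hj (by omega)) (hR.R1 (j + 1) (by omega) hjm)
          (hR.R3 j hj hjm)
      have h1 := SQ _ _ hπ
      rw [← h1]
      have hc : π (B j * B j) = 1 := by rw [ihj]; exact hzπ
      calc (B j * B (j + 1)) * B j * (B j * B (j + 1))⁻¹
            * ((B j * B (j + 1)) * B j * (B j * B (j + 1))⁻¹)
          = (B j * B (j + 1)) * (B j * B j) * (B j * B (j + 1))⁻¹ := by group
        _ = B j * B j := cen' _ hc _
        _ = z := ihj
  have hBα : ∀ j, 2 ≤ j → j ≤ m → B j * α₁ * (B j)⁻¹ = α₁⁻¹ := by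
    intro j hj hjm
    apply CU
    · rw [map_mul, map_mul, map_inv, map_inv, hBπ j hjm, hα₁π]
      exact h8s_A4 hR j hj hjm
    · rw [conj_pow, hα₁3, mul_one, mul_inv_cancel]
    · rw [inv_pow, hα₁3, inv_one]
  have a3 : α₁ * α₁ * α₁ = 1 := by rw [← hα₁3, pow_succ, pow_two]
  have hB1sq : B 1 * B 1 = z := hz.symm
  have hab3 : (α₁ * B 1) ^ 3 = 1 := by
    have h := hB3 0 (by omega)
    rw [hB0] at h
    exact h
  have hcomm : ∀ j, j ≤ m → ∀ i, 1 ≤ i → i + 1 < j → (B i * B j) * (B i * B j) = z := by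
    intro j hjm i hi
    induction i, hi using Nat.le_induction with
    | base =>
      intro hij
      obtain ⟨c, hc⟩ : ∃ c, c = (B 1)⁻¹ * (B j * B 1 * (B j)⁻¹) := ⟨_, rfl⟩
      have hcπ : π c = 1 := by
        rw [hc, map_mul, map_mul, map_mul, map_inv, map_inv, hBπ j hjm, hBπ 1 hm]
        have h := hR.R2 1 j (by omega) hij hjm
        rw [← h]
        group
      have hcc := hexp c hcπ
      have hcen' := hcen c hcπ
      have Bb : B j * B 1 * (B j)⁻¹ = B 1 * c := by rw [hc]; group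
      have hcz := h8s_C α₁ (B 1) z (B j) c hzc hzz a3 hB1sq hab3 hcen' hcc
        (hBα j (by omega) hjm) Bb
      calc (B 1 * B j) * (B 1 * B j) = B 1 * (B j * B 1 * (B j)⁻¹) * (B j * B j) := by group
        _ = B 1 * (B 1 * c) * z := by rw [Bb, hBsq j (by omega) hjm]
        _ = (B 1 * B 1) * (c * z) := by group
        _ = z := by rw [hB1sq, hcz, hzz, mul_one]
    | succ i hi ih =>
      intro hij
      have ihi := ih (by omega)
      have hπ : π ((B i * B (i + 1)) * (B i * B j) * (B i * B (i + 1))⁻¹)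
          = π (B (i + 1) * B j) := by
        rw [map_mul, map_mul, map_inv, map_mul, map_mul, map_mul, hBπ i (by omega),
          hBπ (i + 1) (by omega), hBπ j hjm]
        have e1 := h8s_braid_conj (hR.R1 i hi (by omega)) (hR.R1 (i + 1) (by omega) (by omega))
          (hR.R3 i hi (by omega))
        have e2 := h8s_comm_conj (hR.R2 i j hi (by omega) hjm)
          (hR.R2 (i + 1) j (by omega) hij hjm)
        calc t i * t (i + 1) * (t i * t j) * (t i * t (i + 1))⁻¹
            = ((t i * t (i + 1)) * t i * (t i * t (i + 1))⁻¹)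
              * ((t i * t (i + 1)) * t j * (t i * t (i + 1))⁻¹) := by group
          _ = t (i + 1) * t j := by rw [e1, e2]
      have h1 := SQ _ _ hπ
      rw [← h1]
      have hc : π ((B i * B j) * (B i * B j)) = 1 := by rw [ihi]; exact hzπ
      calc (B i * B (i + 1)) * (B i * B j) * (B i * B (i + 1))⁻¹
            * ((B i * B (i + 1)) * (B i * B j) * (B i * B (i + 1))⁻¹)
          = (B i * B (i + 1)) * ((B i * B j) * (B i * B j)) * (B i * B (i + 1))⁻¹ := by group
        _ = (B i * B j) * (B i * B j) := cen' _ hc _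
        _ = z := ihi
  refine ⟨B, z, hzπ, hBπ, ?_, hBsq, hB3, ?_⟩
  · rw [hB0]; exact hα₁3
  · intro i j hij hj
    rcases Nat.eq_zero_or_pos i with h0 | h0
    · rw [h0, hB0]
      calc (α₁ * B j) * (α₁ * B j) = α₁ * (B j * α₁ * (B j)⁻¹) * (B j * B j) := by group
        _ = z := by rw [hBα j (by omega) hj, hBsq j (by omega) hj]; group
    · exact hcomm j hj i h0 hij

theorem h8s_nonsplit {Γ : Type u} {A : Type v} [Group Γ] [Group A] [Finite Γ] (π : Γ →* A)
    (hsurj : Function.Surjective π) (hcen : ∀ z, π z = 1 → ∀ g, g * z = z * g)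
    (m : ℕ) (hm : 1 ≤ m) (t : ℕ → A) (hR : h8s_Rel m t) (hG : h8s_Gen m t)
    (hcard : 2 * Nat.card A = (m + 3).factorial)
    (hexp : ∀ z, π z = 1 → z * z = 1)
    (hns : ∀ L : Subgroup Γ, ¬ (π.ker).IsComplement' L) :
    ∀ x : Γ, π x = t 1 → x * x ≠ 1 := by
  classical
  intro x hx hxx
  obtain ⟨B, z, hzπ, hBπ, hB03, hBsq, hB3, hB2⟩ := h8s_norm π hsurj hcen m hm t hR hexp
  have hz1 : z = 1 := by
    obtain ⟨c, hc, rfl⟩ := h8s_dec π (hx.trans (hBπ 1 hm).symm)
    have e := hcen c hc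
    have h1 : B 1 * c * (B 1 * c) = B 1 * B 1 * (c * c) := by
      calc B 1 * c * (B 1 * c) = B 1 * (c * B 1) * c := by group
        _ = B 1 * (B 1 * c) * c := by rw [← e (B 1)]
        _ = B 1 * B 1 * (c * c) := by group
    rw [h1, hexp c hc, mul_one, hBsq 1 (by omega) hm] at hxx
    exact hxx
  obtain ⟨K, hK⟩ : ∃ K : Subgroup Γ,
      K = Subgroup.closure (Set.range (fun i : Fin (m + 1) => B i)) := ⟨_, rfl⟩
  have hBK : ∀ j, j ≤ m → B j ∈ K := by
    intro j hj
    rw [hK]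
    exact Subgroup.subset_closure ⟨⟨j, by omega⟩, rfl⟩
  obtain ⟨B', hB'⟩ : ∃ B' : ℕ → K, ∀ j, j ≤ m → (B' j : Γ) = B j :=
    ⟨fun j => if h : j ≤ m then ⟨B j, hBK j h⟩ else 1, fun j h => by simp only [dif_pos h]⟩
  have hRB : h8s_Rel m B' := by
    apply h8s_rel_of_pow
    · apply Subtype.ext
      rw [Subgroup.coe_mul, Subgroup.coe_mul, hB' 0 (by omega), Subgroup.coe_one, ← hB03,
        pow_succ, pow_two]
    · intro j h1 h2
      apply Subtype.ext
      rw [Subgroup.coe_mul, hB' j h2, Subgroup.coe_one, hBsq j h1 h2, hz1]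
    · intro i hi
      apply Subtype.ext
      rw [Subgroup.coe_pow, Subgroup.coe_mul, hB' i (by omega), hB' (i + 1) hi, Subgroup.coe_one]
      exact hB3 i hi
    · intro i j hij hj
      apply Subtype.ext
      rw [Subgroup.coe_pow, Subgroup.coe_mul, hB' i (by omega), hB' j hj, Subgroup.coe_one,
        pow_two, hB2 i j hij hj, hz1]
  have hGB : h8s_Gen m B' := by
    show Subgroup.closure (Set.range (fun i : Fin (m + 1) => B' i)) = ⊤
    have h1 := Subgroup.closure_closure_coe_preimage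
      (k := Set.range (fun i : Fin (m + 1) => B i))
    have h2 : ((↑) : Subgroup.closure (Set.range (fun i : Fin (m + 1) => B i)) → Γ) ⁻¹'
        (Set.range (fun i : Fin (m + 1) => B i))
        = Set.range (fun i : Fin (m + 1) => (⟨B i, Subgroup.subset_closure ⟨i, rfl⟩⟩ :
          Subgroup.closure (Set.range (fun i : Fin (m + 1) => B i)))) := by
      ext y
      constructor
      · rintro ⟨i, hi⟩
        exact ⟨i, Subtype.ext hi⟩
      · rintro ⟨i, rfl⟩
        exact ⟨i, rfl⟩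
    rw [h2] at h1
    subst hK
    have h3 : (fun i : Fin (m + 1) => B' i) = (fun i : Fin (m + 1) =>
        (⟨B i, Subgroup.subset_closure ⟨i, rfl⟩⟩ :
          Subgroup.closure (Set.range (fun i : Fin (m + 1) => B i)))) := by
      funext i
      apply Subtype.ext
      exact hB' i (by have := i.2; omega)
    rw [h3]
    exact h1
  obtain ⟨hfinK, hleK⟩ := h8s_card m B' hRB hGB
  have hsK : Function.Surjective (π.comp K.subtype) := by
    rw [← MonoidHom.range_eq_top, eq_top_iff]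
    have hG' : Subgroup.closure (Set.range (fun i : Fin (m + 1) => t i)) = ⊤ := hG
    rw [← hG', Subgroup.closure_le]
    rintro _ ⟨i, rfl⟩
    refine ⟨⟨B i, hBK i (by have := i.2; omega)⟩, ?_⟩
    show π (B i) = t i
    exact hBπ i (by have := i.2; omega)
  have hbK : Function.Bijective (π.comp K.subtype) := by
    apply hsK.bijective_of_nat_card_le
    omega
  have hdisj : Disjoint π.ker K := by
    rw [Subgroup.disjoint_def]
    intro y hy1 hy2
    have h1 : (π.comp K.subtype) ⟨y, hy2⟩ = (π.comp K.subtype) 1 := by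
      rw [map_one]
      exact MonoidHom.mem_ker.mp hy1
    have h2 := hbK.1 h1
    exact congrArg Subtype.val h2
  have hmul : (π.ker : Set Γ) * (K : Set Γ) = Set.univ := by
    rw [Set.eq_univ_iff_forall]
    intro g
    obtain ⟨k, hk⟩ := hsK (π g)
    rw [Set.mem_mul]
    refine ⟨g * (k : Γ)⁻¹, ?_, (k : Γ), k.2, by group⟩
    show g * (k : Γ)⁻¹ ∈ π.ker
    rw [MonoidHom.mem_ker, map_mul, map_inv]
    have hk' : π (k : Γ) = π g := hk
    rw [hk', mul_inv_cancel]
  exact hns K (Subgroup.isComplement'_of_disjoint_and_mul_eq_univ hdisj hmul)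

end Cfsg.Agent.Lib.helper8
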