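import Mathlib
import Cfsg.Agent.Lib.helper8.CoprimeAction

set_option autoImplicit false

namespace Cfsg.Agent.Lib.helper8

theorem conj_cover_count {G : Type*} [Group G] [Finite G] (C : Subgroup G) :
    {x : G | x ≠ 1 ∧ ∃ g : G, g⁻¹ * x * g ∈ C}.ncard *
      Nat.card (Subgroup.normalizer (C : Set G)) ≤ Nat.card G * (Nat.card C - 1) := by
  classical
  have := Fintype.ofFinite G
  obtain ⟨U, hU⟩ : ∃ U : Finset G,
      U = Finset.univ.filter (fun x : G => x ≠ 1 ∧ ∃ g : G, g⁻¹ * x * g ∈ C) := ⟨_, rfl⟩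
  have hUcard : {x : G | x ≠ 1 ∧ ∃ g : G, g⁻¹ * x * g ∈ C}.ncard = U.card := by
    rw [← Set.ncard_coe_finset U]
    congr 1
    ext x
    simp [hU]
  have hm : ∀ x ∈ U, Nat.card (Subgroup.normalizer (C : Set G)) ≤
      ((Finset.univ : Finset G).bipartiteAbove (fun x g => g⁻¹ * x * g ∈ C) x).card := by
    intro x hx
    rw [hU, Finset.mem_filter] at hx
    obtain ⟨g₀, hg₀⟩ := hx.2.2
    have hcardN : Nat.card (Subgroup.normalizer (C : Set G)) =
        (Finset.univ.filter (fun n : G => n ∈ Subgroup.normalizer (C : Set G))).card := by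
      rw [Nat.card_eq_fintype_card, Fintype.card_subtype]
    rw [hcardN]
    apply Finset.card_le_card_of_injOn (fun n => g₀ * n)
    · intro n hn
      have hn' : n ∈ Subgroup.normalizer (C : Set G) := by simpa using hn
      simp only [Finset.bipartiteAbove, Finset.coe_filter, Finset.mem_univ, true_and,
        Set.mem_setOf_eq]
      have e : (g₀ * n)⁻¹ * x * (g₀ * n) = n⁻¹ * (g₀⁻¹ * x * g₀) * n := by group
      rw [e]
      exact conj_mem_of_mem_normalizer' hn' hg₀
    · intro a _ b _ hab
      exact mul_left_cancel hab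
  have hn : ∀ g ∈ (Finset.univ : Finset G),
      (U.bipartiteBelow (fun x g => g⁻¹ * x * g ∈ C) g).card ≤ Nat.card C - 1 := by
    intro g _
    have hcardC : Nat.card C = (Finset.univ.filter (fun c : G => c ∈ C)).card := by
      rw [Nat.card_eq_fintype_card, Fintype.card_subtype]
    have h1 : (1 : G) ∈ Finset.univ.filter (fun c : G => c ∈ C) := by simp
    rw [hcardC, ← Finset.card_erase_of_mem h1]
    apply Finset.card_le_card_of_injOn (fun x => g⁻¹ * x * g)
    · intro x hx
      simp only [Finset.bipartiteBelow, Finset.coe_filter, Set.mem_setOf_eq, hU,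
        Finset.mem_filter, Finset.mem_univ, true_and] at hx
      simp only [Finset.coe_erase, Finset.coe_filter, Finset.mem_univ, true_and, Set.mem_diff,
        Set.mem_setOf_eq, Set.mem_singleton_iff]
      refine ⟨hx.2, ?_⟩
      intro h
      apply hx.1.1
      have e : x = g * (g⁻¹ * x * g) * g⁻¹ := by group
      rw [e, h]; group
    · intro a _ b _ hab
      have hab' : g⁻¹ * a * g = g⁻¹ * b * g := hab
      have := mul_right_cancel hab'
      exact mul_left_cancel this
  have h := Finset.card_nsmul_le_card_nsmul (r := fun x g => g⁻¹ * x * g ∈ C) hm hn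
  rw [hUcard]
  simpa [Nat.card_eq_fintype_card] using h

theorem exists_conj_centralizer_of_not_dvd {G : Type*} [Group G] [Finite G] {r : ℕ}
    [Fact r.Prime] (R : Sylow r G) (x : G)
    (h : ¬ r ∣ (Subgroup.centralizer ({x} : Set G)).index) :
    ∃ g : G, g⁻¹ * x * g ∈ Subgroup.centralizer ((R : Subgroup G) : Set G) := by
  obtain ⟨y, hy⟩ := R.isPGroup'.nonempty_fixed_point_of_prime_not_dvd_card
    (G ⧸ Subgroup.centralizer ({x} : Set G)) h
  induction y using QuotientGroup.induction_on with
  | H g =>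
    refine ⟨g⁻¹, ?_⟩
    rw [inv_inv, Subgroup.mem_centralizer_iff]
    intro t ht
    have h1 := hy ⟨t⁻¹, inv_mem ht⟩
    have h2 : ((t⁻¹ * g : G) : G ⧸ Subgroup.centralizer ({x} : Set G)) = (g : G ⧸ _) := h1
    rw [QuotientGroup.eq] at h2
    have h3 := (Subgroup.mem_centralizer_iff.mp h2) x (Set.mem_singleton x)
    have e1 : (t⁻¹ * g)⁻¹ * g = g⁻¹ * t * g := by group
    rw [e1] at h3
    calc t * (g * x * g⁻¹) = g * ((g⁻¹ * t * g) * x) * g⁻¹ := by group
      _ = g * (x * (g⁻¹ * t * g)) * g⁻¹ := by rw [h3]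
      _ = g * x * g⁻¹ * t := by group

end Cfsg.Agent.Lib.helper8
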