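import Mathlib
import Cfsg.Prelude.Def_OddOrderLocal
import Cfsg.Agent.Lib.helper15.RankTwo3

set_option autoImplicit false

namespace Cfsg.Agent.Lib.helper8.S1451S

theorem star {G : Type*} [Group G] [Finite G] [Group.IsSolvable G] (hodd : Odd (Nat.card G))
    (hr : Cfsg.RankLE 2 G ∨ Cfsg.RankLE 2 (Cfsg.fittingSubgroup G)) (q : ℕ) (hq : q.Prime)
    (Q : Subgroup G) (hQn : Q.Normal) (hQ : IsPGroup q Q) :
    (∀ x ∈ commutator G, (orderOf x).Coprime q → x ∈ Subgroup.centralizer (Q : Set G)) ∧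
    (∀ r : ℕ, r.Prime → q < r → ∀ x : G, ∀ s : ℕ, x ^ (r ^ s) = 1 →
      x ∈ Subgroup.centralizer (Q : Set G)) := by
  have : Fact q.Prime := ⟨hq⟩
  by_cases hq2 : q = 2
  · have hQbot : Q = ⊥ := by
      obtain ⟨n, hn⟩ := IsPGroup.iff_card.mp hQ
      have hdvd : Nat.card Q ∣ Nat.card G := Subgroup.card_subgroup_dvd_card Q
      rw [hn, hq2] at hdvd
      have hn0 : n = 0 := by
        by_contra hn0
        have h2 : 2 ∣ Nat.card G := dvd_trans (dvd_pow_self 2 hn0) hdvd
        exact (Nat.not_even_iff_odd.mpr hodd) (even_iff_two_dvd.mpr h2)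
      rw [hn0, pow_zero] at hn
      exact Subgroup.card_eq_one.mp hn
    subst hQbot
    refine ⟨fun x _ _ => ?_, fun r _ _ x s _ => ?_⟩ <;>
    · rw [Subgroup.mem_centralizer_iff]
      intro g hg
      have hg1 : g = 1 := Subgroup.mem_bot.mp hg
      rw [hg1]; simp
  have hQF : Q ≤ Cfsg.fittingSubgroup G := by
    unfold Cfsg.fittingSubgroup
    exact le_sSup ⟨hQn, hQ.isNilpotent⟩
  have hrk : ∀ E : Subgroup G, E ≤ Q → (∀ x ∈ E, ∀ y ∈ E, x * y = y * x) →
      (∀ e ∈ E, e ^ q = 1) → Nat.card E ≤ q ^ 2 := by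
    intro E hEQ hab hexp
    rcases hr with h | h
    · exact h q hq E ⟨⟨fun a b => Subtype.ext (hab a a.2 b b.2)⟩⟩ hexp
    · have hEF : E ≤ Cfsg.fittingSubgroup G := hEQ.trans hQF
      have h' := h q hq (E.subgroupOf (Cfsg.fittingSubgroup G))
        ⟨⟨fun a b => Subtype.ext (Subtype.ext (hab a.1.1 a.2 b.1.1 b.2))⟩⟩
        (fun a ha => Subtype.ext (hexp a.1 ha))
      rwa [Nat.card_congr (Subgroup.subgroupOfEquivOfLe hEF).toEquiv] at h'
  obtain ⟨D, hDQ, hDexp, hDcl, hDnorm, hDcrit⟩ :=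
    Cfsg.Agent.Lib.helper15.GL2D.exists_critical q hq2 Q hQ
  have hQtop : Subgroup.normalizer (Q : Set G) = ⊤ := Subgroup.normalizer_eq_top_iff.mpr hQn
  rw [hQtop] at hDnorm
  have hsolv : Group.IsSolvable ↥(⊤ : Subgroup G) := inferInstance
  have hoddT : Odd (Nat.card ↥(⊤ : Subgroup G)) := by rw [Subgroup.card_top]; exact hodd
  have hact := Cfsg.Agent.Lib.helper15.GL2D.rank_two_action q hq2 D ⊤ hDexp hDcl
    (fun E hED hab => hrk E (hED.trans hDQ) hab (fun e he => hDexp e (hED he)))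
    hDnorm hsolv hoddT
  have hmemN : ∀ x : G, x ∈ Subgroup.normalizer (Q : Set G) := by
    intro x; rw [hQtop]; exact Subgroup.mem_top x
  constructor
  · intro x hx hcop
    have h1 : x ^ (q ^ 2) ∈ Subgroup.centralizer (D : Set G) := hact.1 x hx
    obtain ⟨m, hm⟩ := exists_pow_eq_self_of_coprime (x := x) (n := q ^ 2)
      (Nat.Coprime.pow_left 2 hcop.symm)
    have hxD : x ∈ Subgroup.centralizer (D : Set G) := by
      rw [← hm]; exact pow_mem h1 m
    exact hDcrit x (hmemN x) hcop hxD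
  · intro r hr' hqr x s hxs
    have hxD : x ∈ Subgroup.centralizer (D : Set G) := by
      by_contra hn
      have hdvd := hact.2 x (Subgroup.mem_top x) r s hr' (ne_of_gt hqr) hxs hn
      have hq2le := hq.two_le
      rcases (Nat.Prime.dvd_mul hr').mp hdvd with h | h
      · have := Nat.le_of_dvd (by omega) h
        omega
      · have hle := Nat.le_of_dvd (by omega) h
        have hreq : r = q + 1 := by omega
        have hqodd : Odd q := hq.odd_of_ne_two hq2
        have hev : Even r := by rw [hreq]; exact hqodd.add_one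
        have hr2 : r = 2 := (Nat.Prime.even_iff hr').mp hev
        omega
    have hcop : (orderOf x).Coprime q := by
      have hdiv : orderOf x ∣ r ^ s := orderOf_dvd_of_pow_eq_one hxs
      exact Nat.Coprime.coprime_dvd_left hdiv
        (Nat.Coprime.pow_left s ((Nat.coprime_primes hr' hq).mpr (ne_of_gt hqr)))
    exact hDcrit x (hmemN x) hcop hxD

end Cfsg.Agent.Lib.helper8.S1451S
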