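import Mathlib
import Cfsg.Prelude.Def_OddOrderLocal
import Cfsg.Agent.Lib.helper15.RankTwo3

set_option autoImplicit false

namespace Cfsg.Agent.Lib.helper8.S1454T

theorem part_one_wrap {A : Type*} [Group A] [Finite A] (p : ℕ) [Fact p.Prime] (h : ∀ g ∈ commutator A, (orderOf g).Coprime p → g = 1) : commutator A ≤ Cfsg.pCore p A ∧ ((Cfsg.pCore p A).index).Coprime p := by
  have hpp : p.Prime := Fact.out
  have hCp : IsPGroup p ↥(commutator A) := by
    intro x
    obtain ⟨k, m, hm, hnk⟩ :=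
      Nat.exists_eq_pow_mul_and_not_dvd (orderOf_pos (x : A)).ne' p hpp.ne_one
    refine ⟨k, ?_⟩
    have hy : ((x : A) ^ (p ^ k)) ^ m = 1 := by
      rw [← pow_mul, ← hnk]; exact pow_orderOf_eq_one _
    have hcop : (orderOf ((x : A) ^ (p ^ k))).Coprime p :=
      Nat.Coprime.coprime_dvd_left (orderOf_dvd_of_pow_eq_one hy)
        ((Nat.Prime.coprime_iff_not_dvd hpp).mpr hm).symm
    have h1 := h ((x : A) ^ (p ^ k)) ((commutator A).pow_mem x.2 _) hcop
    exact Subtype.ext h1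
  have hCn : (commutator A).Normal := inferInstance
  have hCle : commutator A ≤ Cfsg.pCore p A := le_sSup ⟨hCn, hCp⟩
  refine ⟨hCle, ?_⟩
  obtain ⟨P⟩ : Nonempty (Sylow p A) := inferInstance
  have hRn : (Cfsg.pCore p A).Normal := Subgroup.sSup_normal _ (fun _ h => h.1)
  have hRp : IsPGroup p ↥(Cfsg.pCore p A) :=
    Sylow.sSup_of_normal _ (fun _ h => h.2) (fun _ h => h.1)
  have hRP : Cfsg.pCore p A ≤ (P : Subgroup _) := hRp.le_sylow_of_normal P
  have hPle : commutator A ≤ (P : Subgroup _) := hCle.trans hRP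
  have hPn : (P : Subgroup A).Normal := by
    constructor
    intro n hn g
    have h2 : g * n * g⁻¹ = (g * n * g⁻¹ * n⁻¹) * n := by group
    have h3 : g * n * g⁻¹ * n⁻¹ ∈ commutator A :=
      Subgroup.commutator_mem_commutator (Subgroup.mem_top g) (Subgroup.mem_top n)
    rw [h2]
    exact Subgroup.mul_mem _ (hPle h3) hn
  have hPeq : (P : Subgroup _) = Cfsg.pCore p A :=
    le_antisymm (le_sSup ⟨hPn, P.isPGroup'⟩) hRP
  rw [← hPeq]
  exact Nat.Coprime.symm ((Nat.Prime.coprime_iff_not_dvd hpp).mpr P.not_dvd_index)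

theorem part_three_a {G : Type*} [Group G] [Finite G] (p : ℕ) [Fact p.Prime] (hp : p ≠ 2) (R A : Subgroup G) (hR : IsPGroup p R) (hr2 : Cfsg.PRankLE p 2 R) (hA : A ≤ Subgroup.normalizer (R : Set G)) (hAodd : Odd (Nat.card A)) (hfaith : A ⊓ Subgroup.centralizer (R : Set G) = ⊥) (hq : (Nat.card A).Prime) (hq1 : ¬ Nat.card A ∣ p * (p - 1)) : 2 * Nat.card A ∣ p + 1 := by
  have hpp : p.Prime := Fact.out
  have hne : A ≠ ⊥ := by
    intro h
    rw [h, Subgroup.card_bot] at hq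
    exact Nat.not_prime_one hq
  obtain ⟨a, ha1⟩ := (Subgroup.ne_bot_iff_exists_ne_one.mp hne)
  have haA : (a : G) ∈ A := a.2
  have ha1' : (a : G) ≠ 1 := fun h => ha1 (Subtype.ext h)
  have hord : orderOf (a : G) = Nat.card A := by
    have h := Subgroup.orderOf_dvd_natCard A haA
    rcases (Nat.dvd_prime hq).mp h with h1 | h1
    · exact absurd (orderOf_eq_one_iff.mp h1) ha1'
    · exact h1
  have hqp : Nat.card A ≠ p := by
    intro h
    exact hq1 (h ▸ Dvd.intro _ rfl)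
  have hcop : (orderOf (a : G)).Coprime p := by
    rw [hord]
    exact (Nat.coprime_primes hq hpp).mpr hqp
  have hFq : Fact (Nat.card A).Prime := ⟨hq⟩
  have hcyc : IsCyclic ↥A := isCyclic_of_prime_card rfl
  have hAs : Group.IsSolvable ↥A := by
    obtain ⟨g, hg⟩ := hcyc.exists_generator
    apply Group.isSolvable_of_comm
    intro x y
    obtain ⟨i, rfl⟩ := Subgroup.mem_zpowers_iff.mp (hg x)
    obtain ⟨j, rfl⟩ := Subgroup.mem_zpowers_iff.mp (hg y)
    rw [← zpow_add, ← zpow_add, add_comm]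
  obtain ⟨D, hDR, hDexp, hDcl, hDnorm, hDcrit⟩ :=
    Cfsg.Agent.Lib.helper15.GL2D.exists_critical p hp R hR
  have hrk : ∀ E : Subgroup G, E ≤ D → (∀ x ∈ E, ∀ y ∈ E, x * y = y * x) →
      Nat.card E ≤ p ^ 2 := by
    intro E hED hab
    have hER : E ≤ R := hED.trans hDR
    have h' := hr2 (E.subgroupOf R)
      ⟨⟨fun x y => Subtype.ext (Subtype.ext (hab x.1.1 x.2 y.1.1 y.2))⟩⟩
      (fun x hx => Subtype.ext (hDexp x.1 (hED hx)))
    rwa [Nat.card_congr (Subgroup.subgroupOfEquivOfLe hER).toEquiv] at h'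
  have hact := Cfsg.Agent.Lib.helper15.GL2D.rank_two_action p hp D A hDexp hDcl hrk
    (hA.trans hDnorm) hAs hAodd
  have hnD : (a : G) ∉ Subgroup.centralizer (D : Set G) := by
    intro hc
    have h1 := hDcrit (a : G) (hA haA) hcop hc
    have h2 : (a : G) ∈ A ⊓ Subgroup.centralizer (R : Set G) := ⟨haA, h1⟩
    rw [hfaith] at h2
    exact ha1' (Subgroup.mem_bot.mp h2)
  have hpow : (a : G) ^ (Nat.card A ^ 1) = 1 := by
    rw [pow_one, ← hord]; exact pow_orderOf_eq_one _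
  have hdvd := hact.2 (a : G) haA (Nat.card A) 1 hq hqp hpow hnD
  have hq2 : Nat.card A ∣ p + 1 := by
    rcases (Nat.Prime.dvd_mul hq).mp hdvd with h | h
    · exact absurd (Dvd.dvd.mul_left h p) hq1
    · exact h
  have h2 : 2 ∣ p + 1 := by
    have hodd : Odd p := hpp.odd_of_ne_two hp
    exact even_iff_two_dvd.mp hodd.add_one
  have hc2 : Nat.Coprime 2 (Nat.card A) := by
    rw [Nat.coprime_two_left]
    exact hAodd
  exact Nat.Coprime.mul_dvd_of_dvd_of_dvd hc2 h2 hq2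

end Cfsg.Agent.Lib.helper8.S1454T
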