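import Mathlib
import Cfsg.Prelude.Def_OddOrderLocal
import Cfsg.Agent.Lib.helper15.RankTwo3
import Cfsg.Agent.Lib.helper14.S1456M1
import Cfsg.Agent.Lib.helper15.S1456M2
import Cfsg.Agent.Lib.lead.S1456M4
import Cfsg.Agent.Lib.helper21.S1456M3
import Cfsg.Agent.Lib.lead.S1455Q2

set_option autoImplicit false

namespace Cfsg.Agent.Lib.helper8.S1454T1

open scoped commutatorElement

theorem rel_cent {G : Type*} [Group G] [Finite G] (p : ℕ) [Fact p.Prime] (P D A : Subgroup G)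
    (hP : IsPGroup p P) (hDP : D ≤ P) (hPD : P ≤ Subgroup.normalizer (D : Set G))
    (hAP : A ≤ Subgroup.normalizer (P : Set G)) (hAD : A ≤ Subgroup.normalizer (D : Set G))
    (e : G) (he : e ∈ P)
    (hfix : Nat.card ↥(D ⊓ Subgroup.centralizer ({e} : Set G)) ≤ p) :
    ∀ g ∈ ⁅A, A⁆, (orderOf g).Coprime p → g ∈ Subgroup.centralizer (D : Set G) := by
  obtain ⟨N, hN⟩ : ∃ N : Subgroup G,
      N = Subgroup.normalizer (P : Set G) ⊓ Subgroup.normalizer (D : Set G) := ⟨_, rfl⟩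
  have hNP : N ≤ Subgroup.normalizer (P : Set G) := by rw [hN]; exact inf_le_left
  have hND : N ≤ Subgroup.normalizer (D : Set G) := by rw [hN]; exact inf_le_right
  have hPN : P ≤ N := by rw [hN]; exact le_inf Subgroup.le_normalizer hPD
  have hDN : D ≤ N := hDP.trans hPN
  have hAN : A ≤ N := by rw [hN]; exact le_inf hAP hAD
  have hP'n : (P.subgroupOf N).Normal :=
    (Subgroup.normal_subgroupOf_iff_le_normalizer hPN).mpr hNP
  have hD'n : (D.subgroupOf N).Normal :=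
    (Subgroup.normal_subgroupOf_iff_le_normalizer hDN).mpr hND
  have hP' : IsPGroup p ↥(P.subgroupOf N) :=
    hP.comap_of_injective N.subtype Subtype.val_injective
  have hD'P' : D.subgroupOf N ≤ P.subgroupOf N := fun x hx =>
    Subgroup.mem_subgroupOf.mpr (hDP (Subgroup.mem_subgroupOf.mp hx))
  have he' : (⟨e, hPN he⟩ : ↥N) ∈ P.subgroupOf N := Subgroup.mem_subgroupOf.mpr he
  have hfix' : Nat.card ↥(D.subgroupOf N ⊓
      Subgroup.centralizer ({(⟨e, hPN he⟩ : ↥N)} : Set ↥N)) ≤ p := by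
    refine le_trans (Nat.card_le_card_of_injective
      (fun x : ↥(D.subgroupOf N ⊓ Subgroup.centralizer ({(⟨e, hPN he⟩ : ↥N)} : Set ↥N)) =>
        (⟨((x : ↥N) : G), ?_⟩ : ↥(D ⊓ Subgroup.centralizer ({e} : Set G)))) ?_) hfix
    · have hx := x.2
      rw [Subgroup.mem_inf] at hx
      refine Subgroup.mem_inf.mpr ⟨Subgroup.mem_subgroupOf.mp hx.1, ?_⟩
      rw [Subgroup.mem_centralizer_iff]
      intro z hz
      rw [Set.mem_singleton_iff] at hz
      subst hz
      have h1 := Subgroup.mem_centralizer_iff.mp hx.2 ⟨z, hPN he⟩ (Set.mem_singleton _)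
      exact congrArg Subtype.val h1
    · intro x y hxy
      have h1 := congrArg Subtype.val hxy
      simp only at h1
      exact Subtype.ext (Subtype.ext h1)
  have hmain := @Cfsg.Agent.Lib.helper21.S1456M3.cent_of_small_fix ↥N _ _ p _
    (P.subgroupOf N) (D.subgroupOf N) hP'n hD'n hP' hD'P' ⟨e, hPN he⟩ he' hfix'
  intro g hg hcop
  have hle : ⁅A, A⁆ ≤ (commutator ↥N).map N.subtype := by
    rw [commutator_def, Subgroup.map_commutator]
    have hA' : A ≤ (⊤ : Subgroup ↥N).map N.subtype := by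
      intro x hx
      exact ⟨⟨x, hAN hx⟩, Subgroup.mem_top _, rfl⟩
    exact Subgroup.commutator_mono hA' hA'
  obtain ⟨y, hy, hyg⟩ := hle hg
  have hcop' : (orderOf y).Coprime p := by
    rw [← Subgroup.orderOf_coe]
    have h2 : ((y : ↥N) : G) = g := hyg
    rw [h2]; exact hcop
  have hyc := hmain y hy hcop'
  rw [Subgroup.mem_centralizer_iff]
  intro d hd
  have h3 := Subgroup.mem_centralizer_iff.mp hyc ⟨d, hDN hd⟩ (Subgroup.mem_subgroupOf.mpr hd)
  have h4 : d * ((y : ↥N) : G) = ((y : ↥N) : G) * d := congrArg Subtype.val h3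
  have h2 : ((y : ↥N) : G) = g := hyg
  rw [h2] at h4
  exact h4

theorem narrow_data' {G : Type*} [Group G] [Finite G] (p : ℕ) [Fact p.Prime] (R : Subgroup G)
    (hRn : Cfsg.IsNarrow p R) :
    ∃ E : Subgroup G, E ≤ R ∧ (∀ a ∈ E, ∀ b ∈ E, a * b = b * a) ∧ (∀ a ∈ E, a ^ p = 1) ∧
      ∀ B : Subgroup G, B ≤ R → B ≤ Subgroup.centralizer (E : Set G) →
        (∀ a ∈ B, ∀ b ∈ B, a * b = b * a) → (∀ b ∈ B, b ^ p = 1) → Nat.card B ≤ p ^ 2 := by
  have hpp : p.Prime := Fact.out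
  rcases hRn with hr | ⟨R₀, R₁, h0, h1, -, hc, hsup⟩
  · refine ⟨⊥, bot_le, ?_, ?_, ?_⟩
    · intro a ha b hb
      rw [Subgroup.mem_bot.mp ha, Subgroup.mem_bot.mp hb]
    · intro a ha
      rw [Subgroup.mem_bot.mp ha, one_pow]
    · intro B hBR _ hab hexp
      have h' := hr (B.subgroupOf R)
        ⟨⟨fun x y => Subtype.ext (Subtype.ext (hab x.1.1 x.2 y.1.1 y.2))⟩⟩
        (fun x hx => Subtype.ext (hexp x.1 hx))
      rwa [Nat.card_congr (Subgroup.subgroupOfEquivOfLe hBR).toEquiv] at h'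
  · have hF0 : Finite ↥R₀ := inferInstance
    have hcyc : IsCyclic ↥R₀ := isCyclic_of_prime_card h0
    refine ⟨R₀.map R.subtype, Subgroup.map_subtype_le _, ?_, ?_, ?_⟩
    · rintro a ⟨a', ha', rfl⟩ b ⟨b', hb', rfl⟩
      obtain ⟨g, hg⟩ := hcyc.exists_generator
      obtain ⟨i, hi⟩ := Subgroup.mem_zpowers_iff.mp (hg ⟨a', ha'⟩)
      obtain ⟨j, hj⟩ := Subgroup.mem_zpowers_iff.mp (hg ⟨b', hb'⟩)
      have hcomm : (⟨a', ha'⟩ : ↥R₀) * ⟨b', hb'⟩ = ⟨b', hb'⟩ * ⟨a', ha'⟩ := by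
        rw [← hi, ← hj, ← zpow_add, ← zpow_add, add_comm]
      have h2 : a' * b' = b' * a' := congrArg Subtype.val hcomm
      exact congrArg Subtype.val h2
    · rintro a ⟨a', ha', rfl⟩
      have h3 : (⟨a', ha'⟩ : ↥R₀) ^ p = 1 := by
        rw [← h0]; exact pow_card_eq_one'
      have h4 : a' ^ p = 1 := congrArg Subtype.val h3
      exact congrArg Subtype.val h4
    · intro B hBR hBC hab hexp
      have hB' : B.subgroupOf R ≤ R₀ ⊔ R₁ := by
        rw [hsup]
        intro x hx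
        rw [Subgroup.mem_centralizer_iff]
        intro r hr
        have h5 := Subgroup.mem_centralizer_iff.mp (hBC (Subgroup.mem_subgroupOf.mp hx))
          (r : G) ⟨r, hr, rfl⟩
        exact Subtype.ext h5
      have h' := Cfsg.Agent.Lib.lead.S1455Q2.narrow_count p R₀ R₁ (B.subgroupOf R) h0 h1 hc hB'
        (fun x hx => Subtype.ext (hexp x.1 hx))
      rwa [Nat.card_congr (Subgroup.subgroupOfEquivOfLe hBR).toEquiv] at h'

theorem part_one_core {G : Type*} [Group G] [Finite G] (p : ℕ) [Fact p.Prime] (hp : p ≠ 2) (R A : Subgroup G) (hR : IsPGroup p R) (hRn : Cfsg.IsNarrow p R) (hA : A ≤ Subgroup.normalizer (R : Set G)) (hAs : Group.IsSolvable A) (hAodd : Odd (Nat.card A)) (hfaith : A ⊓ Subgroup.centralizer (R : Set G) = ⊥) : ∀ g ∈ ⁅A, A⁆, (orderOf g).Coprime p → g = 1 := by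
  intro g hg hcop
  have hgA : g ∈ A := by
    have hle : ⁅A, A⁆ ≤ A := by
      rw [Subgroup.commutator_le]
      intro a ha b hb
      rw [commutatorElement_def]
      exact A.mul_mem (A.mul_mem (A.mul_mem ha hb) (A.inv_mem ha)) (A.inv_mem hb)
    exact hle hg
  obtain ⟨E, hER, hEc, hEp, hr⟩ := narrow_data' p R hRn
  obtain ⟨D, hDR, hDexp, hDcl, hDnorm, hDcrit⟩ :=
    Cfsg.Agent.Lib.helper15.GL2D.exists_critical p hp R hR
  suffices hgD : g ∈ Subgroup.centralizer (D : Set G) by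
    have h1 := hDcrit g (hA hgA) hcop hgD
    have h2 : g ∈ A ⊓ Subgroup.centralizer (R : Set G) := ⟨hgA, h1⟩
    rw [hfaith] at h2
    exact Subgroup.mem_bot.mp h2
  obtain ⟨e, heR, hep, he⟩ :=
    Cfsg.Agent.Lib.helper14.S1456M1.exists_small_centralizer p R hR E hER hEc hEp hr
  by_cases heD : e ∈ D
  · have hrk := Cfsg.Agent.Lib.helper15.S1456M2.rank_of_mem p D hDexp hDcl e heD
      (fun B hBD hBe hBc =>
        he B (hBD.trans hDR) hBe hBc (fun b hb => hDexp b (hBD hb)))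
    have hact := Cfsg.Agent.Lib.helper15.GL2D.rank_two_action p hp D A hDexp hDcl hrk
      (hA.trans hDnorm) hAs hAodd
    have h1 : g ^ (p ^ 2) ∈ Subgroup.centralizer (D : Set G) := hact.1 g hg
    obtain ⟨m, hm⟩ := exists_pow_eq_self_of_coprime (x := g) (n := p ^ 2)
      (Nat.Coprime.pow_left 2 hcop.symm)
    rw [← hm]; exact pow_mem h1 m
  · have hfix := Cfsg.Agent.Lib.lead.S1456M4.fix_card_le p R D hR hDR hDexp e heR hep heD he
    exact rel_cent p R D A hR hDR (Subgroup.le_normalizer.trans hDnorm) hA (hA.trans hDnorm)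
      e heR hfix g hg hcop

end Cfsg.Agent.Lib.helper8.S1454T1
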