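import Mathlib

set_option autoImplicit false

namespace Cfsg.Agent.Lib.helper8

noncomputable def h8q_Q (N : ℕ) : QuadraticForm ℚ (Fin N → ℚ) :=
  QuadraticMap.weightedSumSquares ℚ (fun _ : Fin N => (1 / 2 : ℚ))

theorem h8q_Q_apply (N : ℕ) (v : Fin N → ℚ) : h8q_Q N v = (1 / 2) * dotProduct v v := by
  unfold h8q_Q
  rw [QuadraticMap.weightedSumSquares_apply]
  simp [dotProduct, Finset.mul_sum]

theorem h8q_polar (N : ℕ) (a b : Fin N → ℚ) :
    QuadraticMap.polar (h8q_Q N) a b = dotProduct a b := by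
  unfold QuadraticMap.polar
  rw [h8q_Q_apply, h8q_Q_apply, h8q_Q_apply, add_dotProduct, dotProduct_add, dotProduct_add,
    dotProduct_comm b a]
  ring

def h8q_pt (k : ℕ) (j : ℕ) : Fin (k + 3) := if h : j < k + 3 then ⟨j, h⟩ else ⟨0, by omega⟩

theorem h8q_pt_inj (k : ℕ) {i j : ℕ} (hi : i < k + 3) (hj : j < k + 3) :
    h8q_pt k i = h8q_pt k j ↔ i = j := by
  unfold h8q_pt
  rw [dif_pos hi, dif_pos hj]
  constructor
  · intro h
    exact congrArg Fin.val h
  · intro h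
    subst h
    rfl

noncomputable def h8q_u (k j : ℕ) : Fin (k + 3) → ℚ := Pi.single (h8q_pt k j) 1

theorem h8q_uu (k : ℕ) {i j : ℕ} (hi : i < k + 3) (hj : j < k + 3) :
    dotProduct (h8q_u k i) (h8q_u k j) = if i = j then 1 else 0 := by
  unfold h8q_u
  rw [single_dotProduct, one_mul, Pi.single_apply]
  simp only [h8q_pt_inj k hi hj]

noncomputable def h8q_v (k j : ℕ) : Fin (k + 3) → ℚ := h8q_u k j - h8q_u k (j + 1)

theorem h8q_vv (k : ℕ) {i j : ℕ} (hi : i + 1 < k + 3) (hj : j + 1 < k + 3) :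
    dotProduct (h8q_v k i) (h8q_v k j) = (if i = j then 1 else 0) - (if i = j + 1 then 1 else 0)
      - (if i + 1 = j then 1 else 0) + (if i + 1 = j + 1 then 1 else 0) := by
  unfold h8q_v
  rw [sub_dotProduct, dotProduct_sub, dotProduct_sub,
    h8q_uu k (show i < k + 3 by omega) (show j < k + 3 by omega),
    h8q_uu k (show i < k + 3 by omega) (show j + 1 < k + 3 by omega),
    h8q_uu k (show i + 1 < k + 3 by omega) (show j < k + 3 by omega),
    h8q_uu k (show i + 1 < k + 3 by omega) (show j + 1 < k + 3 by omega)]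
  ring

noncomputable def h8q_T (k j : ℕ) : CliffordAlgebra (h8q_Q (k + 3)) :=
  CliffordAlgebra.ι (h8q_Q (k + 3)) (h8q_v k j)

theorem h8q_TT (k : ℕ) {i : ℕ} (hi : i + 1 < k + 3) : h8q_T k i * h8q_T k i = 1 := by
  unfold h8q_T
  rw [CliffordAlgebra.ι_sq_scalar, h8q_Q_apply, h8q_vv k hi hi, if_pos rfl,
    if_neg (show ¬ (i = i + 1) by omega), if_neg (show ¬ (i + 1 = i) by omega), if_pos rfl]
  norm_num

theorem h8q_T_adj (k : ℕ) {i : ℕ} (hi : i + 2 < k + 3) :
    h8q_T k i * h8q_T k (i + 1) + h8q_T k (i + 1) * h8q_T k i = -1 := by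
  unfold h8q_T
  rw [CliffordAlgebra.ι_mul_ι_add_swap, h8q_polar,
    h8q_vv k (show i + 1 < k + 3 by omega) (show i + 1 + 1 < k + 3 by omega),
    if_neg (show ¬ (i = i + 1) by omega), if_neg (show ¬ (i = i + 1 + 1) by omega),
    if_pos rfl, if_neg (show ¬ (i + 1 = i + 1 + 1) by omega)]
  norm_num

theorem h8q_T_far (k : ℕ) {i j : ℕ} (hij : i + 1 < j) (hj : j + 1 < k + 3) :
    h8q_T k i * h8q_T k j = -(h8q_T k j * h8q_T k i) := by
  have h : h8q_T k i * h8q_T k j + h8q_T k j * h8q_T k i = 0 := by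
    unfold h8q_T
    rw [CliffordAlgebra.ι_mul_ι_add_swap, h8q_polar,
      h8q_vv k (show i + 1 < k + 3 by omega) hj,
      if_neg (show ¬ (i = j) by omega), if_neg (show ¬ (i = j + 1) by omega),
      if_neg (show ¬ (i + 1 = j) by omega), if_neg (show ¬ (i + 1 = j + 1) by omega)]
    norm_num
  exact eq_neg_of_add_eq_zero_left h

theorem h8q_L2 {C : Type*} [Ring C] (x y : C) (hx : x * x = 1) (hy : y * y = 1)
    (h : x * y = -(y * x)) : (x * y) * (x * y) = -1 := by
  have h' : y * x = -(x * y) := by rw [h, neg_neg]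
  calc (x * y) * (x * y) = x * (y * x) * y := by simp only [mul_assoc]
    _ = x * (-(x * y)) * y := by rw [h']
    _ = -((x * x) * (y * y)) := by simp only [mul_neg, neg_mul, mul_assoc]
    _ = -1 := by rw [hx, hy, mul_one]

theorem h8q_L3 {C : Type*} [Ring C] (x y : C) (hx : x * x = 1) (hy : y * y = 1)
    (h : x * y + y * x = -1) : (x * y) ^ 3 = 1 := by
  have h' : y * x = -1 - x * y := eq_sub_of_add_eq' h
  have hw : (x * y) * (x * y) = -(x * y) - 1 := by
    calc (x * y) * (x * y) = x * (y * x) * y := by simp only [mul_assoc]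
      _ = x * (-1 - x * y) * y := by rw [h']
      _ = -(x * y) - (x * x) * (y * y) := by noncomm_ring
      _ = -(x * y) - 1 := by rw [hx, hy, mul_one]
  calc (x * y) ^ 3 = (x * y) * (x * y) * (x * y) := by rw [pow_succ, pow_two]
    _ = (-(x * y) - 1) * (x * y) := by rw [hw]
    _ = -((x * y) * (x * y)) - x * y := by noncomm_ring
    _ = -(-(x * y) - 1) - x * y := by rw [hw]
    _ = 1 := by abel

theorem h8q_M1 {C : Type*} [Ring C] (x y w : C) (hx : x * x = 1) (h : x * y = -(y * x)) :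
    (x * y) * (x * w) = -(y * w) := by
  have h' : y * x = -(x * y) := by rw [h, neg_neg]
  calc (x * y) * (x * w) = x * (y * x) * w := by simp only [mul_assoc]
    _ = x * (-(x * y)) * w := by rw [h']
    _ = -((x * x) * (y * w)) := by simp only [mul_neg, neg_mul, mul_assoc]
    _ = -(y * w) := by rw [hx, one_mul]

theorem h8q_model (k : ℕ) (hk : 1 ≤ k) : ∃ (G : Type) (_ : Group G) (φ : ℕ → G) (z : G),
    z ≠ 1 ∧ z * z = 1 ∧ (∀ g : G, z * g = g * z) ∧ φ 0 ^ 3 = 1 ∧
    (∀ j, 1 ≤ j → j ≤ k → φ j ^ 2 = z) ∧ (∀ i, i + 1 ≤ k → (φ i * φ (i + 1)) ^ 3 = z) ∧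
    (∀ i j, i + 1 < j → j ≤ k → (φ i * φ j) ^ 2 = z) := by
  classical
  haveI : Invertible (2 : ℚ) := invertibleOfNonzero (by norm_num)
  have hnt : Nontrivial (CliffordAlgebra (h8q_Q (k + 3))) := inferInstance
  obtain ⟨T, hT⟩ : ∃ T : ℕ → CliffordAlgebra (h8q_Q (k + 3)), T = h8q_T k := ⟨_, rfl⟩
  have TT : ∀ i, i + 1 < k + 3 → T i * T i = 1 := by
    intro i hi
    rw [hT]
    exact h8q_TT k hi
  have adj : ∀ i, i + 2 < k + 3 → T i * T (i + 1) + T (i + 1) * T i = -1 := by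
    intro i hi
    rw [hT]
    exact h8q_T_adj k hi
  have far : ∀ i j, i + 1 < j → j + 1 < k + 3 → T i * T j = -(T j * T i) := by
    intro i j hij hj
    rw [hT]
    exact h8q_T_far k hij hj
  have h00 := TT 0 (by omega)
  have h11 := TT 1 (by omega)
  have h01 : T 0 * T 1 + T 1 * T 0 = -1 := adj 0 (by omega)
  have pp : (T 0 + T 1) * (T 0 + T 1) = 1 := by
    calc (T 0 + T 1) * (T 0 + T 1) = T 0 * T 0 + T 1 * T 1 + (T 0 * T 1 + T 1 * T 0) := by
          noncomm_ring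
      _ = 1 := by rw [h00, h11, h01]; abel
  have p3 : T 0 * T 1 * T 0 = -(T 0 + T 1) := by
    have h' : T 1 * T 0 = -1 - T 0 * T 1 := eq_sub_of_add_eq' h01
    calc T 0 * T 1 * T 0 = T 0 * (T 1 * T 0) := by rw [mul_assoc]
      _ = T 0 * (-1 - T 0 * T 1) := by rw [h']
      _ = -T 0 - (T 0 * T 0) * T 1 := by noncomm_ring
      _ = -(T 0 + T 1) := by rw [h00, one_mul]; abel
  have ab : ∀ w : CliffordAlgebra (h8q_Q (k + 3)),
      (T 0 * T 1) * (T 0 * w) = -((T 0 + T 1) * w) := by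
    intro w
    calc (T 0 * T 1) * (T 0 * w) = (T 0 * T 1 * T 0) * w := by simp only [mul_assoc]
      _ = -((T 0 + T 1) * w) := by rw [p3, neg_mul]
  obtain ⟨TU, hTU⟩ : ∃ TU : ℕ → (CliffordAlgebra (h8q_Q (k + 3)))ˣ,
      ∀ j, j + 1 < k + 3 → (TU j : CliffordAlgebra (h8q_Q (k + 3))) = T j :=
    ⟨fun j => if h : j + 1 < k + 3 then ⟨T j, T j, TT j h, TT j h⟩ else 1,
     fun j h => by simp only [dif_pos h]⟩
  obtain ⟨φ, hφ0, hφj⟩ : ∃ φ : ℕ → (CliffordAlgebra (h8q_Q (k + 3)))ˣ,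
      (φ 0 : CliffordAlgebra (h8q_Q (k + 3))) = T 0 * T 1 ∧
      ∀ j, 1 ≤ j → j ≤ k → (φ j : CliffordAlgebra (h8q_Q (k + 3))) = T 0 * T (j + 1) := by
    refine ⟨fun j => if j = 0 then TU 0 * TU 1 else TU 0 * TU (j + 1), ?_, ?_⟩
    · show ((if (0 : ℕ) = 0 then TU 0 * TU 1 else TU 0 * TU (0 + 1) :
        (CliffordAlgebra (h8q_Q (k + 3)))ˣ) : CliffordAlgebra (h8q_Q (k + 3))) = T 0 * T 1
      rw [if_pos rfl, Units.val_mul, hTU 0 (by omega), hTU 1 (by omega)]
    · intro j h1 h2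
      show ((if j = 0 then TU 0 * TU 1 else TU 0 * TU (j + 1) :
        (CliffordAlgebra (h8q_Q (k + 3)))ˣ) : CliffordAlgebra (h8q_Q (k + 3))) = T 0 * T (j + 1)
      rw [if_neg (show ¬ (j = 0) by omega), Units.val_mul, hTU 0 (by omega),
        hTU (j + 1) (by omega)]
  refine ⟨(CliffordAlgebra (h8q_Q (k + 3)))ˣ, inferInstance, φ, -1, ?_, ?_, ?_, ?_, ?_, ?_, ?_⟩
  · intro h
    have h1 : ((-1 : (CliffordAlgebra (h8q_Q (k + 3)))ˣ) : CliffordAlgebra (h8q_Q (k + 3)))
        = 1 := by rw [h]; rfl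
    rw [Units.val_neg, Units.val_one] at h1
    have h2 : (algebraMap ℚ (CliffordAlgebra (h8q_Q (k + 3)))) 2 = 0 := by
      have e : (algebraMap ℚ (CliffordAlgebra (h8q_Q (k + 3)))) 2
          = 1 - (-1 : CliffordAlgebra (h8q_Q (k + 3))) := by
        rw [show (2 : ℚ) = 1 + 1 by norm_num, map_add, map_one]
        abel
      rw [e, h1, sub_self]
    have h4 : (algebraMap ℚ (CliffordAlgebra (h8q_Q (k + 3)))) (2 * (1 / 2)) = 0 := by
      rw [map_mul, h2, zero_mul]
    rw [show (2 : ℚ) * (1 / 2) = 1 by norm_num, map_one] at h4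
    exact one_ne_zero h4
  · rw [neg_mul_neg, one_mul]
  · intro g
    rw [neg_mul, one_mul, mul_neg, mul_one]
  · apply Units.ext
    rw [Units.val_pow_eq_pow_val, hφ0, Units.val_one]
    exact h8q_L3 _ _ h00 h11 h01
  · intro j h1 h2
    apply Units.ext
    rw [Units.val_pow_eq_pow_val, hφj j h1 h2, Units.val_neg, Units.val_one, pow_two]
    exact h8q_L2 _ _ h00 (TT (j + 1) (by omega)) (far 0 (j + 1) (by omega) (by omega))
  · intro i hi
    apply Units.ext
    rw [Units.val_pow_eq_pow_val, Units.val_mul, Units.val_neg, Units.val_one]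
    rcases Nat.eq_zero_or_pos i with h0 | h0
    · rw [h0, hφ0, hφj (0 + 1) (by omega) (by omega), ab]
      have h22 := TT 2 (by omega)
      have h02 : T 0 * T 2 = -(T 2 * T 0) := far 0 2 (by omega) (by omega)
      have h12 : T 1 * T 2 + T 2 * T 1 = -1 := adj 1 (by omega)
      have hp2 : (T 0 + T 1) * T 2 + T 2 * (T 0 + T 1) = -1 := by
        calc (T 0 + T 1) * T 2 + T 2 * (T 0 + T 1)
            = T 0 * T 2 + T 2 * T 0 + (T 1 * T 2 + T 2 * T 1) := by noncomm_ring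
          _ = -1 := by rw [h02, h12]; abel
      have h3 := h8q_L3 _ _ pp h22 hp2
      rw [Odd.neg_pow (by decide), h3]
    · rw [hφj i h0 (by omega), hφj (i + 1) (by omega) hi,
        h8q_M1 _ _ _ h00 (far 0 (i + 1) (by omega) (by omega))]
      have h3 := h8q_L3 _ _ (TT (i + 1) (by omega)) (TT (i + 1 + 1) (by omega))
        (adj (i + 1) (by omega))
      rw [Odd.neg_pow (by decide), h3]
  · intro i j hij hj
    apply Units.ext
    rw [Units.val_pow_eq_pow_val, Units.val_mul, Units.val_neg, Units.val_one, pow_two]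
    rcases Nat.eq_zero_or_pos i with h0 | h0
    · rw [h0, hφ0, hφj j (by omega) hj, ab, neg_mul_neg]
      have hjj := TT (j + 1) (by omega)
      have h0j : T 0 * T (j + 1) = -(T (j + 1) * T 0) := far 0 (j + 1) (by omega) (by omega)
      have h1j : T 1 * T (j + 1) = -(T (j + 1) * T 1) := far 1 (j + 1) (by omega) (by omega)
      have hpj : (T 0 + T 1) * T (j + 1) = -(T (j + 1) * (T 0 + T 1)) := by
        calc (T 0 + T 1) * T (j + 1) = T 0 * T (j + 1) + T 1 * T (j + 1) := by noncomm_ring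
          _ = -(T (j + 1) * T 0) + -(T (j + 1) * T 1) := by rw [h0j, h1j]
          _ = -(T (j + 1) * (T 0 + T 1)) := by noncomm_ring
      exact h8q_L2 _ _ pp hjj hpj
    · rw [hφj i h0 (by omega), hφj j (by omega) hj,
        h8q_M1 _ _ _ h00 (far 0 (i + 1) (by omega) (by omega)), neg_mul_neg]
      exact h8q_L2 _ _ (TT (i + 1) (by omega)) (TT (j + 1) (by omega))
        (far (i + 1) (j + 1) (by omega) (by omega))

end Cfsg.Agent.Lib.helper8
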