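import Mathlib
import Cfsg.Prelude.Def_Local
import Cfsg.Prelude.Def_OddOrderLocal
import Cfsg.Prelude.Def_CaseTheorems
import Cfsg.Agent.Lib.helper8.CoprimeAction
import Cfsg.Agent.Lib.helper9.Generation
import Cfsg.Agent.Lib.helper9.PPrimeCore
import Cfsg.Agent.Lib.helper15.PCore
import Cfsg.Agent.Lib.helper16.PConstr
import Cfsg.Agent.Lib.helper16.PSolv
import Cfsg.Agent.S3737

set_option autoImplicit false
open scoped commutatorElement

namespace Cfsg.Agent.Lib.helper8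

universe u

theorem mem_cmap {G : Type*} [Group G] (c : G) (Q : Subgroup G) (x : G) :
    x ∈ Q.map (MulAut.conj c).toMonoidHom ↔ c⁻¹ * x * c ∈ Q := by
  constructor
  · rintro ⟨y, hy, rfl⟩
    have : c⁻¹ * ((MulAut.conj c).toMonoidHom y) * c = y := by
      simp [MulAut.conj_apply, mul_assoc]
    rw [this]; exact hy
  · intro h
    exact ⟨c⁻¹ * x * c, h, by simp [MulAut.conj_apply, mul_assoc]⟩

theorem card_cmap {G : Type*} [Group G] (c : G) (Q : Subgroup G) :
    Nat.card (Q.map (MulAut.conj c).toMonoidHom) = Nat.card Q :=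
  Subgroup.card_map_of_injective (MulAut.conj c).injective

theorem pow_card_of_mem {G : Type*} [Group G] {A : Subgroup G} {a : G} (ha : a ∈ A) :
    a ^ Nat.card A = 1 := by
  have h := pow_card_eq_one' (G := A) (x := ⟨a, ha⟩)
  have h2 : (((⟨a, ha⟩ : A) ^ Nat.card A : A) : G) = 1 := by rw [h]; rfl
  rwa [Subgroup.coe_pow] at h2

theorem isPGroup_zpowers_of_pow {G : Type*} [Group G] {p : ℕ} {g : G} {k : ℕ}
    (h : g ^ (p ^ k) = 1) : IsPGroup p (Subgroup.zpowers g) := by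
  rintro ⟨x, hx⟩
  obtain ⟨i, rfl⟩ := Subgroup.mem_zpowers_iff.mp hx
  refine ⟨k, Subtype.ext ?_⟩
  show (g ^ i) ^ (p ^ k) = 1
  rw [← zpow_natCast, ← zpow_mul, mul_comm, zpow_mul, zpow_natCast, h, one_zpow]

theorem card_lt_of_lt {G : Type*} [Group G] [Finite G] {H K : Subgroup G} (h : H < K) :
    Nat.card H < Nat.card K := by
  by_contra hcon
  exact h.ne (Subgroup.eq_of_le_of_card_ge h.le (not_lt.mp hcon))

theorem le_normalizer_inf {G : Type*} [Group G] {A H K : Subgroup G}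
    (hH : A ≤ Subgroup.normalizer (H : Set G)) (hK : A ≤ Subgroup.normalizer (K : Set G)) :
    A ≤ Subgroup.normalizer ((H ⊓ K : Subgroup G) : Set G) :=
  le_normalizer_of_conj_mem (fun _ ha _ hx =>
    ⟨conj_mem_of_mem_normalizer (hH ha) hx.1, conj_mem_of_mem_normalizer (hK ha) hx.2⟩)

theorem le_normalizer_sup {G : Type*} [Group G] {A H K : Subgroup G}
    (hH : A ≤ Subgroup.normalizer (H : Set G)) (hK : A ≤ Subgroup.normalizer (K : Set G)) :
    A ≤ Subgroup.normalizer ((H ⊔ K : Subgroup G) : Set G) := by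
  apply le_normalizer_of_conj_mem
  intro a ha x hx
  have h1 : (H ⊔ K).map (MulAut.conj a).toMonoidHom ≤ H ⊔ K := by
    rw [Subgroup.map_sup]
    apply sup_le_sup
    · intro y hy
      rw [mem_cmap] at hy
      have := conj_mem_of_mem_normalizer (hH ha) hy
      have e : a * (a⁻¹ * y * a) * a⁻¹ = y := by group
      rwa [e] at this
    · intro y hy
      rw [mem_cmap] at hy
      have := conj_mem_of_mem_normalizer (hK ha) hy
      have e : a * (a⁻¹ * y * a) * a⁻¹ = y := by group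
      rwa [e] at this
  apply h1
  rw [mem_cmap]
  have e : a⁻¹ * (a * x * a⁻¹) * a = x := by group
  rwa [e]

theorem coprime_card_sup_of_le_normalizer {G : Type*} [Group G] [Finite G] {p : ℕ}
    [Fact p.Prime] {N A : Subgroup G}
    (hAN : A ≤ Subgroup.normalizer (N : Set G)) (hN : (Nat.card N).Coprime p)
    (hA : (Nat.card A).Coprime p) : (Nat.card (N ⊔ A : Subgroup G)).Coprime p := by
  have hp : p.Prime := Fact.out
  rw [Nat.coprime_comm, Nat.Prime.coprime_iff_not_dvd hp]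
  intro hdvd
  obtain ⟨x, hx⟩ := exists_prime_orderOf_dvd_card' (G := ↥(N ⊔ A)) p hdvd
  obtain ⟨n, hn, a, ha, hxe⟩ := (mem_sup_iff_of_le_normalizer hAN x.1).mp x.2
  have h1 := mul_pow_mem_of_mem_normalizer hn (hAN ha) (Nat.card A)
  rw [pow_card_of_mem ha, inv_one, mul_one, ← hxe] at h1
  have h3 : (x.1 ^ Nat.card A) ^ Nat.card N = 1 := pow_card_of_mem h1
  have h4 : orderOf x.1 ∣ Nat.card A * Nat.card N :=
    orderOf_dvd_of_pow_eq_one (by rw [pow_mul]; exact h3)
  have h5 : orderOf x.1 = p := by rw [← hx]; exact Subgroup.orderOf_coe x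
  rw [h5] at h4
  have h6 : (Nat.card A * Nat.card N).Coprime p := Nat.Coprime.mul_left hA hN
  exact (Nat.Prime.coprime_iff_not_dvd hp).mp h6.symm h4

theorem coprime_card_of_isPGroup {G : Type*} [Group G] [Finite G] {p q : ℕ}
    [Fact p.Prime] [Fact q.Prime] (hpq : p ≠ q) {A B : Subgroup G} (hA : IsPGroup p A)
    (hB : IsPGroup q B) : (Nat.card A).Coprime (Nat.card B) := by
  obtain ⟨a, ha⟩ := IsPGroup.iff_card.mp hA
  obtain ⟨b, hb⟩ := IsPGroup.iff_card.mp hB
  rw [ha, hb]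
  exact Nat.Coprime.pow _ _ ((Nat.coprime_primes Fact.out Fact.out).mpr hpq)

theorem coprime_card_of_isPGroup' {G : Type*} [Group G] [Finite G] {p q : ℕ}
    [Fact p.Prime] [Fact q.Prime] (hpq : p ≠ q) {B : Subgroup G}
    (hB : IsPGroup q B) : (Nat.card B).Coprime p := by
  obtain ⟨b, hb⟩ := IsPGroup.iff_card.mp hB
  rw [hb]
  exact Nat.Coprime.pow_left _ ((Nat.coprime_primes Fact.out Fact.out).mpr hpq.symm)

theorem inv_sub_trivial {Q : Type u} [Group Q] [Finite Q] {p : ℕ} [Fact p.Prime]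
    (Y A K : Subgroup Q) [hYn : Y.Normal] (hY : IsPGroup p Y)
    (hCY : Subgroup.centralizer (Y : Set Q) ≤ Y)
    (hA : IsPGroup p A) (hK : (Nat.card K).Coprime p)
    (hAK : A ≤ Subgroup.normalizer (K : Set Q))
    (hself : Y ⊓ Subgroup.centralizer (A : Set Q) ≤ A)
    (hcase : p ≠ 2 ∨ ∀ y ∈ Y, ∀ a ∈ A, a * y * a⁻¹ * y⁻¹ ∈ Subgroup.centralizer (A : Set Q)) :
    K = ⊥ := by
  have hp : p.Prime := Fact.out
  have hYtop : Subgroup.normalizer (Y : Set Q) = ⊤ := Subgroup.normalizer_eq_top_iff.mpr hYn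
  have hAY : A ≤ Subgroup.normalizer (Y : Set Q) := by rw [hYtop]; exact le_top
  have hKYn : K ≤ Subgroup.normalizer (Y : Set Q) := by rw [hYtop]; exact le_top
  have hstep1 : Y ⊓ Subgroup.centralizer (A : Set Q) ≤ Subgroup.centralizer (K : Set Q) := by
    intro y hy
    rw [Subgroup.mem_centralizer_iff]
    intro k hk
    have hyA : y ∈ A := hself hy
    have hyY : y ∈ Y := hy.1
    have h1 : k * y * k⁻¹ * y⁻¹ ∈ Y := Y.mul_mem (hYn.conj_mem y hyY k) (Y.inv_mem hyY)
    have h2 : k * y * k⁻¹ * y⁻¹ ∈ K := by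
      have h : y * k⁻¹ * y⁻¹ ∈ K := conj_mem_of_mem_normalizer (hAK hyA) (K.inv_mem hk)
      have e : k * y * k⁻¹ * y⁻¹ = k * (y * k⁻¹ * y⁻¹) := by group
      rw [e]; exact K.mul_mem hk h
    have h3 := Cfsg.Agent.Lib.helper16.inter_eq_one K Y hK hY h2 h1
    have e : k * y = (k * y * k⁻¹ * y⁻¹) * (y * k) := by group
    rw [e, h3, one_mul]
  have hKY : K ≤ Subgroup.centralizer (Y : Set Q) := by
    rcases hcase with hodd | hcl
    · exact Cfsg.Agent.S3737.result hodd A K Y hA hK hAK hY hAY hKYn hstep1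
    · have hZ0 : ∀ y ∈ Y, ∀ a ∈ A, a * y * a⁻¹ * y⁻¹ ∈ Y ⊓ Subgroup.centralizer (A : Set Q) :=
        fun y hy a ha => ⟨Y.mul_mem (hYn.conj_mem y hy a) (Y.inv_mem hy), hcl y hy a ha⟩
      have hKA : A ≤ Subgroup.centralizer (K : Set Q) := by
        intro a ha
        rw [Subgroup.mem_centralizer_iff]
        intro k hk
        obtain ⟨c, hcdef⟩ : ∃ c, c = k * a * k⁻¹ * a⁻¹ := ⟨_, rfl⟩
        have hcK : c ∈ K := by
          have h : a * k⁻¹ * a⁻¹ ∈ K := conj_mem_of_mem_normalizer (hAK ha) (K.inv_mem hk)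
          have e : c = k * (a * k⁻¹ * a⁻¹) := by rw [hcdef]; group
          rw [e]; exact K.mul_mem hk h
        have hcZ : ∀ z ∈ Y ⊓ Subgroup.centralizer (A : Set Q), Commute c z := by
          intro z hz
          have haz : Commute a z := (Subgroup.mem_centralizer_iff.mp hz.2) a ha
          have hkz : Commute k z := (Subgroup.mem_centralizer_iff.mp (hstep1 hz)) k hk
          rw [hcdef]
          exact ((hkz.mul_left haz).mul_left hkz.inv_left).mul_left haz.inv_left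
        have hcT : ∀ y ∈ Y, c * y * c⁻¹ * y⁻¹ ∈ Y ⊓ Subgroup.centralizer (A : Set Q) := by
          intro y hy
          have hy' : k⁻¹ * y * k ∈ Y := by
            have := hYn.conj_mem y hy k⁻¹
            rwa [inv_inv] at this
          obtain ⟨z, hzdef⟩ : ∃ z, z = a⁻¹ * y * a * y⁻¹ := ⟨_, rfl⟩
          obtain ⟨w, hwdef⟩ : ∃ w, w = a * (k⁻¹ * y * k) * a⁻¹ * (k⁻¹ * y * k)⁻¹ := ⟨_, rfl⟩
          have hz : z ∈ Y ⊓ Subgroup.centralizer (A : Set Q) := by
            have := hZ0 y hy a⁻¹ (A.inv_mem ha)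
            rw [inv_inv] at this
            rw [hzdef]; exact this
          have hw : w ∈ Y ⊓ Subgroup.centralizer (A : Set Q) := by
            rw [hwdef]; exact hZ0 _ hy' a ha
          have haz : Commute a z := (Subgroup.mem_centralizer_iff.mp hz.2) a ha
          have hkz : Commute k z := (Subgroup.mem_centralizer_iff.mp (hstep1 hz)) k hk
          have hz_comm : (k * a * k⁻¹) * z = z * (k * a * k⁻¹) :=
            (hkz.mul_left haz).mul_left hkz.inv_left
          have hw_comm : k * w = w * k := (Subgroup.mem_centralizer_iff.mp (hstep1 hw)) k hk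
          have e : c * y * c⁻¹ * y⁻¹ = z * w := by
            calc c * y * c⁻¹ * y⁻¹ = (k * a * k⁻¹) * z * (y * k * a⁻¹ * k⁻¹ * y⁻¹) := by
                  rw [hcdef, hzdef]; group
              _ = z * (k * a * k⁻¹) * (y * k * a⁻¹ * k⁻¹ * y⁻¹) := by rw [hz_comm]
              _ = z * (k * w) * k⁻¹ := by rw [hwdef]; group
              _ = z * (w * k) * k⁻¹ := by rw [hw_comm]
              _ = z * w := by group
          rw [e]
          exact mul_mem hz hw
        have hcY : c ∈ Subgroup.centralizer (Y : Set Q) := by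
          rw [Subgroup.mem_centralizer_iff]
          intro y hy
          obtain ⟨z, hzdef⟩ : ∃ z, z = c * y * c⁻¹ * y⁻¹ := ⟨_, rfl⟩
          have hz : z ∈ Y ⊓ Subgroup.centralizer (A : Set Q) := by rw [hzdef]; exact hcT y hy
          have hcz := hcZ z hz
          have hpow : ∀ n : ℕ, c ^ n * y * (c ^ n)⁻¹ = z ^ n * y := by
            intro n
            induction n with
            | zero => simp
            | succ n ih =>
              have hczn : c * z ^ n = z ^ n * c := hcz.pow_right n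
              have e1 : c ^ (n + 1) * y * (c ^ (n + 1))⁻¹ = c * (c ^ n * y * (c ^ n)⁻¹) * c⁻¹ := by
                rw [pow_succ']; group
              rw [e1, ih]
              calc c * (z ^ n * y) * c⁻¹ = (c * z ^ n) * y * c⁻¹ := by group
                _ = (z ^ n * c) * y * c⁻¹ := by rw [hczn]
                _ = z ^ n * (c * y * c⁻¹ * y⁻¹) * y := by group
                _ = z ^ n * z * y := by rw [← hzdef]
                _ = z ^ (n + 1) * y := by rw [pow_succ]
          have h1 := hpow (orderOf c)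
          rw [pow_orderOf_eq_one, inv_one, mul_one, one_mul] at h1
          have h2 : z ^ orderOf c = 1 := by
            have : z ^ orderOf c * y = 1 * y := by rw [one_mul]; exact h1.symm
            exact mul_right_cancel this
          obtain ⟨j, hj⟩ := hY ⟨z, hz.1⟩
          have hj' : z ^ (p ^ j) = 1 := by
            have := congrArg Subtype.val hj
            simpa using this
          have hco : (orderOf c).Coprime p :=
            Nat.Coprime.coprime_dvd_left (Subgroup.orderOf_dvd_natCard K hcK) hK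
          have h3 : orderOf z ∣ Nat.gcd (orderOf c) (p ^ j) :=
            Nat.dvd_gcd (orderOf_dvd_of_pow_eq_one h2) (orderOf_dvd_of_pow_eq_one hj')
          rw [Nat.Coprime.pow_right j hco] at h3
          have hz1 : z = 1 := orderOf_eq_one_iff.mp (Nat.dvd_one.mp h3)
          rw [hzdef] at hz1
          have e : y * c = (c * y * c⁻¹ * y⁻¹)⁻¹ * (c * y) := by group
          rw [e, hz1, inv_one, one_mul]
        have hc1 : c = 1 := Cfsg.Agent.Lib.helper16.inter_eq_one K Y hK hY hcK (hCY hcY)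
        rw [hcdef] at hc1
        have e : k * a = (k * a * k⁻¹ * a⁻¹) * (a * k) := by group
        rw [e, hc1, one_mul]
      exact thompson_pq A K Y hA hK hY hKA hAY hKYn hstep1
  rw [eq_bot_iff]
  intro k hk
  rw [Subgroup.mem_bot]
  exact Cfsg.Agent.Lib.helper16.inter_eq_one K Y hK hY hk (hCY (hKY hk))

theorem inv_le_ker {H : Type u} [Group H] [Finite H] {Q : Type u} [Group Q] [Finite Q] {p : ℕ}
    [Fact p.Prime] (π : H →* Q) (hπs : Function.Surjective π)
    (hNc : (Nat.card π.ker).Coprime p)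
    (Y : Subgroup Q) [hYn : Y.Normal] (hY : IsPGroup p Y)
    (hCY : Subgroup.centralizer (Y : Set Q) ≤ Y)
    (E K : Subgroup H) (hEp : IsPGroup p E)
    (hEfull : ∀ x ∈ Subgroup.centralizer (E : Set H), IsPGroup p (Subgroup.zpowers x) → x ∈ E)
    (hK : (Nat.card K).Coprime p) (hEK : E ≤ Subgroup.normalizer (K : Set H))
    (hcl2 : p = 2 → ∀ T : Subgroup H, IsPGroup p T → ∀ x ∈ T, ∀ y ∈ T, ∀ z ∈ T,
      (x * y * x⁻¹ * y⁻¹) * z = z * (x * y * x⁻¹ * y⁻¹)) :
    K ≤ π.ker := by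
  classical
  have hp : p.Prime := Fact.out
  have hA : IsPGroup p (E.map π) := hEp.map _
  have hKb : (Nat.card (K.map π)).Coprime p :=
    Nat.Coprime.coprime_dvd_left (Subgroup.card_map_dvd K _) hK
  have hAK : E.map π ≤ Subgroup.normalizer ((K.map π : Subgroup Q) : Set Q) :=
    (Subgroup.map_mono hEK).trans (Subgroup.le_normalizer_map π)
  have hself : Y ⊓ Subgroup.centralizer ((E.map π : Subgroup Q) : Set Q) ≤ E.map π := by
    intro yb hyb
    obtain ⟨x, rfl⟩ := hπs yb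
    have hx : ∀ e ∈ E, x * e * x⁻¹ * e⁻¹ ∈ π.ker := by
      intro e he
      have h1 := (Subgroup.mem_centralizer_iff.mp hyb.2) (π e) (Subgroup.mem_map_of_mem π he)
      rw [MonoidHom.mem_ker, map_mul, map_mul, map_mul, map_inv, map_inv, ← h1]
      group
    obtain ⟨w, hw, c, hc, hxwc⟩ := Cfsg.Agent.Lib.helper16.lemmaF π.ker hNc E hEp x hx
    have hπ : π x = π c := by
      rw [hxwc, map_mul, MonoidHom.mem_ker.mp hw, one_mul]
    have ho : orderOf c ≠ 0 := (orderOf_pos c).ne'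
    obtain ⟨k, m, hm, hkm⟩ := Nat.exists_eq_pow_mul_and_not_dvd ho p hp.ne_one
    have hcm : c ^ m ∈ E := by
      apply hEfull _ (Subgroup.pow_mem _ hc m)
      apply isPGroup_zpowers_of_pow (k := k)
      rw [← pow_mul, mul_comm, ← hkm, pow_orderOf_eq_one]
    have h3 : π c ^ m ∈ E.map π := by
      rw [← map_pow]; exact Subgroup.mem_map_of_mem π hcm
    have h4 : m.Coprime (orderOf (π c)) := by
      obtain ⟨j, hj⟩ := hY ⟨π x, hyb.1⟩
      have hj' : (π c) ^ (p ^ j) = 1 := by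
        rw [← hπ]
        have := congrArg Subtype.val hj
        simpa using this
      have h5 : orderOf (π c) ∣ p ^ j := orderOf_dvd_of_pow_eq_one hj'
      have h6 : m.Coprime (p ^ j) :=
        Nat.Coprime.pow_right j ((Nat.Prime.coprime_iff_not_dvd hp).mpr hm).symm
      exact Nat.Coprime.coprime_dvd_right h5 h6
    obtain ⟨j, hj⟩ := exists_pow_eq_self_of_coprime h4
    rw [hπ, ← hj]
    exact Subgroup.pow_mem _ h3 j
  have hcase : p ≠ 2 ∨ ∀ y ∈ Y, ∀ a ∈ E.map π,
      a * y * a⁻¹ * y⁻¹ ∈ Subgroup.centralizer ((E.map π : Subgroup Q) : Set Q) := by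
    by_cases h2 : p = 2
    · right
      obtain ⟨S, hES⟩ := hEp.exists_le_sylow
      have hYS : Y ≤ ((S.mapSurjective hπs : Sylow p Q) : Subgroup Q) :=
        Cfsg.Agent.Lib.helper15.normal_pgroup_le_sylow Y hYn hY _
      intro y hy a ha
      rw [Subgroup.mem_centralizer_iff]
      intro b hb
      obtain ⟨s, hs, rfl⟩ := Subgroup.mem_map.mp (hYS hy)
      obtain ⟨e₁, he₁, rfl⟩ := Subgroup.mem_map.mp ha
      obtain ⟨e₂, he₂, rfl⟩ := Subgroup.mem_map.mp hb
      have h := hcl2 h2 (S : Subgroup H) S.isPGroup' e₁ (hES he₁) s hs e₂ (hES he₂)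
      have h' := congrArg π h
      simp only [map_mul, map_inv] at h'
      exact h'.symm
    · left; exact h2
  have hbot := inv_sub_trivial Y (E.map π) (K.map π) hY hCY hA hKb hAK hself hcase
  intro k hk
  have h1 : π k ∈ K.map π := Subgroup.mem_map_of_mem π hk
  rw [hbot, Subgroup.mem_bot] at h1
  exact MonoidHom.mem_ker.mpr h1

theorem inv_le_pPrimeCore {G : Type u} [Group G] [Finite G] {p : ℕ} [Fact p.Prime]
    (H E K : Subgroup G) (hH : Cfsg.IsPConstrained p ↥H)
    (hEH : E ≤ H) (hKH : K ≤ H) (hEp : IsPGroup p E)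
    (hEfull : ∀ x ∈ Subgroup.centralizer (E : Set G), IsPGroup p (Subgroup.zpowers x) → x ∈ E)
    (hK : (Nat.card K).Coprime p) (hEK : E ≤ Subgroup.normalizer (K : Set G))
    (hcl2 : p = 2 → ∀ T : Subgroup G, IsPGroup p T → ∀ x ∈ T, ∀ y ∈ T, ∀ z ∈ T,
      (x * y * x⁻¹ * y⁻¹) * z = z * (x * y * x⁻¹ * y⁻¹)) :
    K ≤ (Cfsg.pPrimeCore p ↥H).map H.subtype := by
  classical
  haveI hNn : (Cfsg.pPrimeCore p ↥H).Normal := Cfsg.Agent.Lib.helper9.ppc_normal p ↥H
  have hNc : (Nat.card (Cfsg.pPrimeCore p ↥H)).Coprime p :=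
    Cfsg.Agent.Lib.helper9.pPrimeCore_coprime p ↥H
  have hCY := (Cfsg.Agent.Lib.helper16.pc_iff_quot).mp hH
  haveI hYn : (Cfsg.pCore p (↥H ⧸ Cfsg.pPrimeCore p ↥H)).Normal :=
    Cfsg.Agent.Lib.helper15.pCore_normal p _
  have hY : IsPGroup p (Cfsg.pCore p (↥H ⧸ Cfsg.pPrimeCore p ↥H)) :=
    Cfsg.Agent.Lib.helper15.pCore_isPGroup p _
  have hker : (QuotientGroup.mk' (Cfsg.pPrimeCore p ↥H)).ker = Cfsg.pPrimeCore p ↥H :=
    QuotientGroup.ker_mk' _
  have hEfull' : ∀ x ∈ Subgroup.centralizer ((E.subgroupOf H : Subgroup ↥H) : Set ↥H),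
      IsPGroup p (Subgroup.zpowers x) → x ∈ E.subgroupOf H := by
    intro x hx hxp
    rw [Subgroup.mem_subgroupOf]
    apply hEfull
    · rw [Subgroup.mem_centralizer_iff]
      intro e he
      have := (Subgroup.mem_centralizer_iff.mp hx) ⟨e, hEH he⟩ (Subgroup.mem_subgroupOf.mpr he)
      exact congrArg Subtype.val this
    · obtain ⟨j, hj⟩ := hxp ⟨x, Subgroup.mem_zpowers x⟩
      have hj' : x ^ (p ^ j) = 1 := by
        have := congrArg Subtype.val hj
        simpa using this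
      apply isPGroup_zpowers_of_pow (k := j)
      have := congrArg Subtype.val hj'
      simpa using this
  have hK' : (Nat.card (K.subgroupOf H)).Coprime p := by
    have : Nat.card (K.subgroupOf H) = Nat.card K :=
      Nat.card_congr (Subgroup.subgroupOfEquivOfLe hKH).toEquiv
    rw [this]; exact hK
  have hEK' : E.subgroupOf H ≤ Subgroup.normalizer ((K.subgroupOf H : Subgroup ↥H) : Set ↥H) := by
    apply le_normalizer_of_conj_mem
    intro a ha x hx
    rw [Subgroup.mem_subgroupOf] at ha hx ⊢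
    exact conj_mem_of_mem_normalizer (hEK ha) hx
  have hcl2' : p = 2 → ∀ T : Subgroup ↥H, IsPGroup p T → ∀ x ∈ T, ∀ y ∈ T, ∀ z ∈ T,
      (x * y * x⁻¹ * y⁻¹) * z = z * (x * y * x⁻¹ * y⁻¹) := by
    intro h2 T hT x hx y hy z hz
    have := hcl2 h2 (T.map H.subtype) (hT.map _) x (Subgroup.mem_map_of_mem _ hx) y
      (Subgroup.mem_map_of_mem _ hy) z (Subgroup.mem_map_of_mem _ hz)
    exact Subtype.ext this
  have hmain := inv_le_ker (QuotientGroup.mk' (Cfsg.pPrimeCore p ↥H))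
    (QuotientGroup.mk'_surjective _)
    (by rw [hker]; exact hNc) (Cfsg.pCore p (↥H ⧸ Cfsg.pPrimeCore p ↥H)) hY hCY
    (E.subgroupOf H) (K.subgroupOf H) (hEp.comap_subtype) hEfull' hK' hEK' hcl2'
  intro k hk
  have := hmain (show (⟨k, hKH hk⟩ : ↥H) ∈ K.subgroupOf H from Subgroup.mem_subgroupOf.mpr hk)
  rw [hker] at this
  exact ⟨⟨k, hKH hk⟩, this, rfl⟩

theorem mem_piCoreOf_centralizer {G : Type u} [Group G] [Finite G] {p : ℕ} [Fact p.Prime]
    (E : Subgroup G) (hEp : IsPGroup p E) (hEc : ∀ x ∈ E, ∀ y ∈ E, x * y = y * x)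
    (hEfull : ∀ x ∈ Subgroup.centralizer (E : Set G), IsPGroup p (Subgroup.zpowers x) → x ∈ E)
    (c : G) (hc : c ∈ Subgroup.centralizer (E : Set G)) (hco : (orderOf c).Coprime p) :
    c ∈ Cfsg.piCoreOf (Cfsg.primesNotDvd p) (Subgroup.centralizer (E : Set G)) := by
  classical
  have hp : p.Prime := Fact.out
  have hEle : E ≤ Subgroup.centralizer (E : Set G) := by
    intro x hx
    rw [Subgroup.mem_centralizer_iff]
    intro y hy
    exact hEc y hy x hx
  obtain ⟨E', hE'def⟩ : ∃ E' : Subgroup ↥(Subgroup.centralizer (E : Set G)),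
      E' = E.subgroupOf (Subgroup.centralizer (E : Set G)) := ⟨_, rfl⟩
  have hE'mem : ∀ x : ↥(Subgroup.centralizer (E : Set G)), x ∈ E' ↔ (x : G) ∈ E := by
    intro x; rw [hE'def, Subgroup.mem_subgroupOf]
  have hE'c : E' ≤ Subgroup.center ↥(Subgroup.centralizer (E : Set G)) := by
    intro x hx
    rw [Subgroup.mem_center_iff]
    intro g
    apply Subtype.ext
    have := (Subgroup.mem_centralizer_iff.mp g.2) x.1 ((hE'mem x).mp hx)
    exact this.symm
  haveI hE'n : E'.Normal := ⟨fun n hn g => by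
    have h1 := (Subgroup.mem_center_iff.mp (hE'c hn)) g
    rw [h1, mul_inv_cancel_right]; exact hn⟩
  have hE'p : IsPGroup p E' := by rw [hE'def]; exact hEp.comap_subtype
  obtain ⟨P, hP⟩ := hE'p.exists_le_sylow
  have hPE : (P : Subgroup ↥(Subgroup.centralizer (E : Set G))) = E' := by
    apply le_antisymm _ hP
    intro x hx
    rw [hE'mem]
    apply hEfull _ x.2
    obtain ⟨j, hj⟩ := P.isPGroup' ⟨x, hx⟩
    have hj' : x ^ (p ^ j) = 1 := by
      have := congrArg Subtype.val hj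
      simpa using this
    apply isPGroup_zpowers_of_pow (k := j)
    have := congrArg Subtype.val hj'
    simpa using this
  have hidx : ¬ p ∣ E'.index := by
    rw [← hPE]; exact P.not_dvd_index
  let ψ : ↥(Subgroup.centralizer (E : Set G)) →* ↥(Subgroup.centralizer (E : Set G)) :=
    { toFun := fun x => x ^ E'.index
      map_one' := one_pow _
      map_mul' := Cfsg.Agent.Lib.helper16.pow_index_mul_of_le_center E' hE'c }
  have hψ : ∀ x, ψ x = x ^ E'.index := fun _ => rfl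
  have hcK : (⟨c, hc⟩ : ↥(Subgroup.centralizer (E : Set G))) ∈ ψ.ker := by
    rw [MonoidHom.mem_ker, hψ]
    have h1 : (⟨c, hc⟩ : ↥(Subgroup.centralizer (E : Set G))) ^ E'.index ∈ E' :=
      Subgroup.pow_index_mem E' _
    obtain ⟨j, hj⟩ := hE'p ⟨_, h1⟩
    have hj' : ((⟨c, hc⟩ : ↥(Subgroup.centralizer (E : Set G))) ^ E'.index) ^ (p ^ j) = 1 := by
      have := congrArg Subtype.val hj
      simpa using this
    have hj'' : c ^ (E'.index * p ^ j) = 1 := by
      have := congrArg Subtype.val hj'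
      rw [← pow_mul] at this
      simpa using this
    have h2 : orderOf c ∣ E'.index * p ^ j := orderOf_dvd_of_pow_eq_one hj''
    have h3 : orderOf c ∣ E'.index :=
      (Nat.Coprime.pow_right j hco).dvd_of_dvd_mul_right h2
    obtain ⟨t, ht⟩ := h3
    apply Subtype.ext
    show c ^ E'.index = 1
    rw [ht, pow_mul, pow_orderOf_eq_one, one_pow]
  have hle : ψ.ker ≤ Cfsg.piCore (Cfsg.primesNotDvd p) ↥(Subgroup.centralizer (E : Set G)) := by
    apply le_sSup
    refine ⟨inferInstance, ?_⟩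
    intro r hr hrd
    refine ⟨hr, ?_⟩
    intro hrp
    have hrp' : r = p := (Nat.prime_dvd_prime_iff_eq hr hp).mp hrp
    rw [hrp'] at hrd
    obtain ⟨x, hx⟩ := exists_prime_orderOf_dvd_card' (G := ↥ψ.ker) p hrd
    have h1 : ψ x.1 = 1 := x.2
    rw [hψ] at h1
    have h2 : orderOf x.1 ∣ E'.index := orderOf_dvd_of_pow_eq_one h1
    rw [Subgroup.orderOf_coe, hx] at h2
    exact hidx h2
  exact ⟨⟨c, hc⟩, hle hcK, rfl⟩

theorem isPGroup_of_mem_inv {G : Type*} [Group G] [Finite G] {q : ℕ} [Fact q.Prime]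
    {E Y : Subgroup G} (hY : Y ∈ Cfsg.invSubgroups ⊤ E {q}) : IsPGroup q Y := by
  have hq : q.Prime := Fact.out
  have h := Nat.eq_prime_pow_of_unique_prime_dvd (n := Nat.card Y) (p := q) Nat.card_pos.ne'
    (fun {d} hd hdvd => hY.2.1 d hd hdvd)
  exact IsPGroup.of_card h

theorem mem_inv_of_isPGroup {G : Type*} [Group G] [Finite G] {q : ℕ} [Fact q.Prime]
    {E Y : Subgroup G} (hY : IsPGroup q Y) (hE : E ≤ Subgroup.normalizer (Y : Set G)) :
    Y ∈ Cfsg.invSubgroups ⊤ E {q} := by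
  have hq : q.Prime := Fact.out
  refine ⟨le_top, ?_, hE⟩
  intro r hr hrd
  obtain ⟨k, hk⟩ := IsPGroup.iff_card.mp hY
  rw [hk] at hrd
  exact (Nat.prime_dvd_prime_iff_eq hr hq).mp (hr.dvd_of_dvd_pow hrd)

theorem exists_maxInv_ge {G : Type*} [Group G] [Finite G] (E : Subgroup G) (π : Set ℕ) :
    ∀ (m : ℕ) (Y : Subgroup G), Y ∈ Cfsg.invSubgroups ⊤ E π → Nat.card G - Nat.card Y = m →
      ∃ Q ∈ Cfsg.maxInvSubgroups ⊤ E π, Y ≤ Q := by
  intro m
  induction m using Nat.strong_induction_on with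
  | _ m ih =>
  intro Y hY hm
  by_cases hmax : ∀ R ∈ Cfsg.invSubgroups ⊤ E π, Y ≤ R → R = Y
  · exact ⟨Y, ⟨hY, hmax⟩, le_rfl⟩
  · push_neg at hmax
    obtain ⟨R, hR, hYR, hne⟩ := hmax
    have hlt : Y < R := lt_of_le_of_ne hYR (Ne.symm hne)
    have h1 := card_lt_of_lt hlt
    have h2 : Nat.card R ≤ Nat.card G := Subgroup.card_le_card_group R
    obtain ⟨Q, hQ, hRQ⟩ := ih (Nat.card G - Nat.card R) (by omega) R hR rfl
    exact ⟨Q, hQ, hYR.trans hRQ⟩

theorem cmap_mem_inv {G : Type*} [Group G] (E : Subgroup G) (π : Set ℕ) (c : G)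
    (hc : c ∈ Subgroup.centralizer (E : Set G)) (Y : Subgroup G)
    (hY : Y ∈ Cfsg.invSubgroups ⊤ E π) :
    Y.map (MulAut.conj c).toMonoidHom ∈ Cfsg.invSubgroups ⊤ E π := by
  refine ⟨le_top, ?_, ?_⟩
  · rw [card_cmap]; exact hY.2.1
  · apply le_normalizer_of_conj_mem
    intro e he x hx
    rw [mem_cmap] at hx ⊢
    have h1 := conj_mem_of_mem_normalizer (hY.2.2 he) hx
    have hce : Commute e c := (Subgroup.mem_centralizer_iff.mp hc) e he
    have h1c : c⁻¹ * e = e * c⁻¹ := (hce.inv_right).eq.symm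
    have h2c : e⁻¹ * c = c * e⁻¹ := (hce.inv_left).eq
    have e3 : c⁻¹ * (e * x * e⁻¹) * c = e * (c⁻¹ * x * c) * e⁻¹ := by
      calc c⁻¹ * (e * x * e⁻¹) * c = (c⁻¹ * e) * x * (e⁻¹ * c) := by group
        _ = (e * c⁻¹) * x * (c * e⁻¹) := by rw [h1c, h2c]
        _ = e * (c⁻¹ * x * c) * e⁻¹ := by group
    rw [e3]; exact h1

theorem cmap_mem_maxInv {G : Type*} [Group G] (E : Subgroup G) (π : Set ℕ) (c : G)
    (hc : c ∈ Subgroup.centralizer (E : Set G)) (Q : Subgroup G)
    (hQ : Q ∈ Cfsg.maxInvSubgroups ⊤ E π) :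
    Q.map (MulAut.conj c).toMonoidHom ∈ Cfsg.maxInvSubgroups ⊤ E π := by
  refine ⟨cmap_mem_inv E π c hc Q hQ.1, ?_⟩
  intro R hR hQR
  have hR' := cmap_mem_inv E π c⁻¹ (inv_mem hc) R hR
  have hle : Q ≤ R.map (MulAut.conj c⁻¹).toMonoidHom := by
    intro x hx
    rw [mem_cmap, inv_inv]
    apply hQR
    rw [mem_cmap]
    have e : c⁻¹ * (c * x * c⁻¹) * c = x := by group
    rwa [e]
  have heq := hQ.2 _ hR' hle
  ext x
  rw [mem_cmap, ← heq, mem_cmap, inv_inv]
  have e : c * (c⁻¹ * x * c) * c⁻¹ = x := by group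
  rw [e]

theorem card_le_mul_of_sup_zpowers {G : Type*} [Group G] [Finite G] {p : ℕ} (hp : p.Prime)
    (V B : Subgroup G) (hVc : ∀ x ∈ V, ∀ y ∈ V, x * y = y * x) (hVexp : ∀ v ∈ V, v ^ p = 1)
    (hB : B ≤ V) (g : ∃ a ∈ V, B ⊔ Subgroup.zpowers a = V) : Nat.card V ≤ Nat.card B * p := by
  obtain ⟨a, ha, hBa⟩ := g
  have hzV : Subgroup.zpowers a ≤ V := Subgroup.zpowers_le.mpr ha
  have hza : Subgroup.zpowers a ≤ Subgroup.normalizer (B : Set G) := by
    apply le_normalizer_of_conj_mem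
    intro z hz x hx
    have := hVc z (hzV hz) x (hB hx)
    rw [this, mul_inv_cancel_right]; exact hx
  let f : B × Subgroup.zpowers a → V := fun bz => ⟨bz.1.1 * bz.2.1, mul_mem (hB bz.1.2) (hzV bz.2.2)⟩
  have hf : Function.Surjective f := by
    rintro ⟨v, hv⟩
    have hv' : v ∈ B ⊔ Subgroup.zpowers a := by rw [hBa]; exact hv
    obtain ⟨n, hn, z, hz, rfl⟩ := (mem_sup_iff_of_le_normalizer hza v).mp hv'
    exact ⟨(⟨n, hn⟩, ⟨z, hz⟩), rfl⟩
  have h1 := Nat.card_le_card_of_surjective f hf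
  rw [Nat.card_prod, Nat.card_zpowers] at h1
  have h2 : orderOf a ≤ p := Nat.le_of_dvd hp.pos (orderOf_dvd_of_pow_eq_one (hVexp a ha))
  exact h1.trans (Nat.mul_le_mul_left _ h2)

theorem exists_ne_one_inf {G : Type*} [Group G] [Finite G] {p : ℕ} (hp : p.Prime)
    (V B₁ B₂ : Subgroup G) (hVc : ∀ x ∈ V, ∀ y ∈ V, x * y = y * x) (hVexp : ∀ v ∈ V, v ^ p = 1)
    (hVcard : p ^ 2 < Nat.card V) (h₁ : B₁ ≤ V) (h₂ : B₂ ≤ V)
    (g₁ : ∃ a ∈ V, B₁ ⊔ Subgroup.zpowers a = V) (g₂ : ∃ a ∈ V, B₂ ⊔ Subgroup.zpowers a = V) :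
    ∃ a ∈ B₁ ⊓ B₂, a ≠ 1 := by
  by_contra hcon
  push_neg at hcon
  have hbot : B₁ ⊓ B₂ = ⊥ := by
    rw [eq_bot_iff]; intro a ha; rw [Subgroup.mem_bot]; exact hcon a ha
  have c1 := card_le_mul_of_sup_zpowers hp V B₁ hVc hVexp h₁ g₁
  have c2 := card_le_mul_of_sup_zpowers hp V B₂ hVc hVexp h₂ g₂
  have r1 : Nat.card B₁ * B₁.relIndex V = Nat.card V := by
    have := Subgroup.relIndex_mul_relIndex ⊥ B₁ V bot_le h₁
    rwa [Subgroup.relIndex_bot_left, Subgroup.relIndex_bot_left] at this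
  have r2 : Nat.card B₂ * B₂.relIndex V = Nat.card V := by
    have := Subgroup.relIndex_mul_relIndex ⊥ B₂ V bot_le h₂
    rwa [Subgroup.relIndex_bot_left, Subgroup.relIndex_bot_left] at this
  have r3 : Nat.card (B₁ ⊓ B₂ : Subgroup G) * (B₁ ⊓ B₂).relIndex V = Nat.card V := by
    have := Subgroup.relIndex_mul_relIndex ⊥ (B₁ ⊓ B₂) V bot_le (inf_le_left.trans h₁)
    rwa [Subgroup.relIndex_bot_left, Subgroup.relIndex_bot_left] at this
  have r4 := Subgroup.relIndex_inf_le (H := B₁) (K := B₂) (L := V)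
  have hc1 : Nat.card (B₁ ⊓ B₂ : Subgroup G) = 1 := by rw [hbot]; exact Subgroup.card_bot
  rw [hc1, one_mul] at r3
  have hB₁pos : 0 < Nat.card B₁ := Nat.card_pos
  have hB₂pos : 0 < Nat.card B₂ := Nat.card_pos
  have k1 : B₁.relIndex V ≤ p := by
    by_contra hk
    push_neg at hk
    have : Nat.card B₁ * p < Nat.card B₁ * B₁.relIndex V := Nat.mul_lt_mul_of_pos_left hk hB₁pos
    omega
  have k2 : B₂.relIndex V ≤ p := by
    by_contra hk
    push_neg at hk
    have : Nat.card B₂ * p < Nat.card B₂ * B₂.relIndex V := Nat.mul_lt_mul_of_pos_left hk hB₂pos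
    omega
  have h5 : Nat.card V ≤ p * p := by
    rw [← r3]
    exact r4.trans (Nat.mul_le_mul k1 k2)
  rw [pow_two] at hVcard
  omega

end Cfsg.Agent.Lib.helper8
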